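import Mathlib
import Cfsg.Agent.Lib.ClassSize.Basic
import Cfsg.Agent.Lib.PGroup.FrattiniBasis
import Cfsg.Agent.Lib.Nilpotent.Fitting

/-!
# Groups all of whose class sizes are squarefree: basic tools

`Hsq G` says all class sizes of `G` are squarefree.  We record the passage to quotients and normal
subgroups, and the elementary "line" arguments on normal `p`-subgroups `O` with
`|O : C_O(g)| ∣ p` for all `g`.
-/

set_option autoImplicit false

namespace Cfsg.Agent.Lib.Nilpotent.Sqf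

open Subgroup Cfsg.Agent.Lib.ClassSize.Basic
open scoped commutatorElement

universe u

variable {G : Type u} [Group G]

/-- All class sizes are squarefree. -/
def Hsq (G : Type u) [Group G] : Prop := ∀ x : G, Squarefree (cent x).index

theorem Hsq.of_surjective {H : Type*} [Group H] (f : G →* H) (hf : Function.Surjective f)
    (h : Hsq G) : ∀ y : H, Squarefree (cent y).index := by
  intro y
  obtain ⟨x, rfl⟩ := hf y
  have h1 : (cent x).map f ≤ cent (f x) := by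
    rintro _ ⟨u, hu, rfl⟩
    rw [SetLike.mem_coe, mem_cent_iff] at hu
    rw [mem_cent_iff, ← map_mul, ← map_mul, hu]
  exact (h x).squarefree_of_dvd ((Subgroup.index_dvd_of_le h1).trans (Subgroup.index_map_dvd _ hf))

theorem Hsq.quotient (h : Hsq G) (N : Subgroup G) [N.Normal] : Hsq (G ⧸ N) :=
  Hsq.of_surjective (QuotientGroup.mk' N) (QuotientGroup.mk'_surjective N) h

variable [Finite G]

theorem Hsq.relIndex (h : Hsq G) (N : Subgroup G) [N.Normal] (g : G) :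
    Squarefree ((cent g).relIndex N) :=
  (h g).squarefree_of_dvd (Cfsg.Agent.Lib.Nilpotent.Fitting.relIndex_dvd_index_of_normal_right _)

theorem cent_subgroupOf (N : Subgroup G) (x : N) : cent x = (cent (x : G)).subgroupOf N := by
  ext u
  rw [mem_cent_iff, Subgroup.mem_subgroupOf, mem_cent_iff]
  constructor
  · intro hu
    exact congrArg Subtype.val hu
  · intro hu
    exact Subtype.ext hu

theorem Hsq.subgroup (h : Hsq G) (N : Subgroup G) [N.Normal] : Hsq N := by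
  intro x
  rw [cent_subgroupOf]
  exact h.relIndex N x

/-- A squarefree divisor of a prime power divides the prime. -/
theorem dvd_prime_of_squarefree {a p k : ℕ} (hp : p.Prime) (hs : Squarefree a) (hd : a ∣ p ^ k) :
    a ∣ p := by
  obtain ⟨j, _, rfl⟩ := (Nat.dvd_prime_pow hp).1 hd
  rcases Nat.lt_or_ge j 2 with hj | hj
  · interval_cases j
    · simp
    · simp
  · exfalso
    have h2 : p * p ∣ p ^ j := by
      rw [← pow_two]
      exact pow_dvd_pow p hj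
    exact hp.not_isUnit (hs p h2)

theorem Hsq.relIndex_dvd (h : Hsq G) {p : ℕ} (hp : p.Prime) {N : Subgroup G} [N.Normal]
    (hN : IsPGroup p N) (g : G) : (cent g).relIndex N ∣ p := by
  haveI : Fact p.Prime := ⟨hp⟩
  obtain ⟨k, hk⟩ := IsPGroup.iff_card.1 hN
  exact dvd_prime_of_squarefree hp (h.relIndex N g) (hk ▸ Subgroup.relIndex_dvd_card _ _)

omit [Finite G] in
/-- Any two nontrivial values of a homomorphism with image of prime order generate the same line. -/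
theorem mem_zpowers_of_range_dvd {X Y : Type*} [Group X] [Group Y] [Finite X] {p : ℕ}
    (hp : p.Prime) (f : X →* Y) (hf : Nat.card f.range ∣ p) {a : X} (ha : f a ≠ 1) (b : X) :
    f b ∈ zpowers (f a) ∧ (f a) ^ p = 1 := by
  haveI : Fact p.Prime := ⟨hp⟩
  have hr : Nat.card f.range ≠ 1 := by
    intro h1
    have : Subsingleton f.range := (Nat.card_eq_one_iff_unique.1 h1).1
    have := Subsingleton.elim (⟨f a, a, rfl⟩ : f.range) 1
    exact ha (congrArg Subtype.val this)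
  have hcard : Nat.card f.range = p := ((Nat.dvd_prime hp).1 hf).resolve_left hr
  have hap : (f a) ^ p = 1 := by
    have := pow_card_eq_one' (G := f.range) (x := ⟨f a, a, rfl⟩)
    rw [hcard] at this
    exact congrArg Subtype.val this
  refine ⟨?_, hap⟩
  have hoa : orderOf (f a) = p := orderOf_eq_prime hap ha
  have hle : zpowers (f a) ≤ f.range := by
    rw [Subgroup.zpowers_le]
    exact ⟨a, rfl⟩
  have hfin : Finite f.range := Finite.of_surjective f.rangeRestrict f.rangeRestrict_surjective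
  have : zpowers (f a) = f.range := by
    apply Subgroup.eq_of_le_of_card_ge hle
    rw [hcard, Nat.card_zpowers, hoa]
  rw [this]
  exact ⟨b, rfl⟩

omit [Finite G] in
/-- If `γ ≠ 1` lies in the cyclic group of prime order generated by `α`, then `α ∈ ⟨γ⟩`. -/
theorem mem_zpowers_of_prime {p : ℕ} (hp : p.Prime) {α γ : G} (hα : α ^ p = 1)
    (hγ : γ ∈ zpowers α) (hne : γ ≠ 1) : α ∈ zpowers γ := by
  haveI : Fact p.Prime := ⟨hp⟩
  have hα1 : α ≠ 1 := by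
    rintro rfl
    rw [zpowers_one_eq_bot, Subgroup.mem_bot] at hγ
    exact hne hγ
  have hoa : orderOf α = p := orderOf_eq_prime hα hα1
  have hfin : Finite (zpowers α) :=
    (Nat.card_pos_iff.1 (by rw [Nat.card_zpowers, hoa]; exact hp.pos)).2
  have hle : zpowers γ ≤ zpowers α := by rwa [Subgroup.zpowers_le]
  have hd : Nat.card (zpowers γ) ∣ p := by
    rw [← hoa, ← Nat.card_zpowers α]
    exact Subgroup.card_dvd_of_le hle
  have hne1 : Nat.card (zpowers γ) ≠ 1 := by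
    rw [Nat.card_zpowers]
    intro h
    exact hne (orderOf_eq_one_iff.1 h)
  have hc : Nat.card (zpowers γ) = p := ((Nat.dvd_prime hp).1 hd).resolve_left hne1
  have : zpowers γ = zpowers α := by
    apply Subgroup.eq_of_le_of_card_ge hle
    rw [hc, Nat.card_zpowers, hoa]
  rw [this]
  exact Subgroup.mem_zpowers α

omit [Finite G] in
/-- A coprime element fixing `[g, u]` fixes `u`. -/
theorem coprime_fix {g u c : G} (h : g * u * g⁻¹ = c * u) (hc : g * c * g⁻¹ = c) {m : ℕ}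
    (hm : g ^ m * u * (g ^ m)⁻¹ = u) {p k : ℕ} (hp : p.Prime) (hcp : c ^ (p ^ k) = 1)
    (hcop : m.Coprime p) : c = 1 := by
  have key : ∀ i : ℕ, g ^ i * u * (g ^ i)⁻¹ = c ^ i * u := by
    intro i
    induction i with
    | zero => simp
    | succ i ih =>
      have e : g ^ (i + 1) * u * (g ^ (i + 1))⁻¹ = g * (g ^ i * u * (g ^ i)⁻¹) * g⁻¹ := by
        rw [pow_succ']; group
      rw [e, ih]
      have e2 : g * (c ^ i * u) * g⁻¹ = (g * c ^ i * g⁻¹) * (g * u * g⁻¹) := by group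
      rw [e2, h, ← conj_pow, hc, pow_succ, mul_assoc]
  have h1 : c ^ m = 1 := by
    have := key m
    rw [hm] at this
    exact (mul_eq_right.1 this.symm)
  have hd : orderOf c ∣ Nat.gcd m (p ^ k) :=
    Nat.dvd_gcd (orderOf_dvd_of_pow_eq_one h1) (orderOf_dvd_of_pow_eq_one hcp)
  have hg : Nat.gcd m (p ^ k) = 1 := Nat.Coprime.pow_right k hcop
  rw [hg, Nat.dvd_one] at hd
  exact orderOf_eq_one_iff.1 hd

section Lines

variable {p : ℕ} {O : Subgroup G}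

/-- The commutator map of an element on an abelian subgroup. -/
def delta (hab : ∀ a ∈ O, ∀ b ∈ O, a * b = b * a) (g : G) (hg : ∀ u ∈ O, g * u * g⁻¹ ∈ O) : O →* O :=
  MonoidHom.mk' (fun u => ⟨g * u * g⁻¹ * (u : G)⁻¹, O.mul_mem (hg _ u.2) (O.inv_mem u.2)⟩) (by
    intro u v
    apply Subtype.ext
    show g * ((u : G) * v) * g⁻¹ * ((u : G) * v)⁻¹ =
      (g * u * g⁻¹ * (u : G)⁻¹) * (g * v * g⁻¹ * (v : G)⁻¹)
    have h1 : (u : G)⁻¹ * (g * v * g⁻¹) = (g * v * g⁻¹) * (u : G)⁻¹ :=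
      hab _ (O.inv_mem u.2) _ (hg _ v.2)
    have h2 : (u : G)⁻¹ * (v : G)⁻¹ = (v : G)⁻¹ * (u : G)⁻¹ :=
      hab _ (O.inv_mem u.2) _ (O.inv_mem v.2)
    calc g * ((u : G) * v) * g⁻¹ * ((u : G) * v)⁻¹
        = (g * u * g⁻¹) * (g * v * g⁻¹) * ((v : G)⁻¹ * (u : G)⁻¹) := by group
      _ = (g * u * g⁻¹) * (g * v * g⁻¹) * ((u : G)⁻¹ * (v : G)⁻¹) := by rw [h2]
      _ = (g * u * g⁻¹) * ((g * v * g⁻¹) * (u : G)⁻¹) * (v : G)⁻¹ := by group
      _ = (g * u * g⁻¹) * ((u : G)⁻¹ * (g * v * g⁻¹)) * (v : G)⁻¹ := by rw [h1]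
      _ = _ := by group)

omit [Finite G] in
theorem delta_apply (hab : ∀ a ∈ O, ∀ b ∈ O, a * b = b * a) (g : G)
    (hg : ∀ u ∈ O, g * u * g⁻¹ ∈ O) (u : O) :
    ((delta hab g hg u : O) : G) = g * u * g⁻¹ * (u : G)⁻¹ := rfl

theorem card_range_delta (hab : ∀ a ∈ O, ∀ b ∈ O, a * b = b * a) (g : G)
    (hg : ∀ u ∈ O, g * u * g⁻¹ ∈ O) : Nat.card (delta hab g hg).range = (cent g).relIndex O := by
  have hker : (delta hab g hg).ker = (cent g).subgroupOf O := by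
    ext u
    rw [MonoidHom.mem_ker, Subgroup.mem_subgroupOf, mem_cent_iff]
    constructor
    · intro hu
      have h1 : g * u * g⁻¹ * (u : G)⁻¹ = 1 := by
        have := congrArg Subtype.val hu
        simpa [delta_apply] using this
      have h2 : g * (u : G) * g⁻¹ = u := mul_inv_eq_one.1 h1
      exact mul_inv_eq_iff_eq_mul.1 h2
    · intro hu
      apply Subtype.ext
      show g * u * g⁻¹ * (u : G)⁻¹ = 1
      have hu' : g * (u : G) = u * g := hu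
      rw [hu']
      group
  rw [← Subgroup.index_ker, hker]
  rfl

/-- **Lines**: all nontrivial `[g, u]`, `u ∈ O`, generate the same subgroup of order `p`. -/
theorem hline (hp : p.Prime) (hab : ∀ a ∈ O, ∀ b ∈ O, a * b = b * a) {g : G}
    (hg : ∀ u ∈ O, g * u * g⁻¹ ∈ O) (hidx : (cent g).relIndex O ∣ p) {a b : G} (ha : a ∈ O)
    (hb : b ∈ O) (h : g * a * g⁻¹ * a⁻¹ ≠ 1) :
    g * b * g⁻¹ * b⁻¹ ∈ zpowers (g * a * g⁻¹ * a⁻¹) ∧ (g * a * g⁻¹ * a⁻¹) ^ p = 1 := by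
  have hf : Nat.card (delta hab g hg).range ∣ p := by rwa [card_range_delta]
  have ha' : delta hab g hg ⟨a, ha⟩ ≠ 1 := by
    intro h1
    exact h (congrArg Subtype.val h1)
  obtain ⟨h1, h2⟩ := mem_zpowers_of_range_dvd hp _ hf ha' ⟨b, hb⟩
  refine ⟨?_, congrArg Subtype.val h2⟩
  obtain ⟨k, hk⟩ := h1
  refine ⟨k, ?_⟩
  have := congrArg Subtype.val hk
  rw [Subgroup.coe_zpow] at this
  exact this

/-- The standing hypotheses on a normal abelian `p`-subgroup. -/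
structure AbHyp (p : ℕ) (O : Subgroup G) : Prop where
  prime : p.Prime
  normal : O.Normal
  pgroup : IsPGroup p O
  abelian : ∀ a ∈ O, ∀ b ∈ O, a * b = b * a
  idx : ∀ g : G, (cent g).relIndex O ∣ p

namespace AbHyp

variable (H : AbHyp p O)
include H

theorem conj_mem (g : G) {u : G} (hu : u ∈ O) : g * u * g⁻¹ ∈ O := H.normal.conj_mem u hu g

theorem hl (g : G) {a b : G} (ha : a ∈ O) (hb : b ∈ O) (h : g * a * g⁻¹ * a⁻¹ ≠ 1) :
    g * b * g⁻¹ * b⁻¹ ∈ zpowers (g * a * g⁻¹ * a⁻¹) ∧ (g * a * g⁻¹ * a⁻¹) ^ p = 1 :=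
  hline H.prime H.abelian (fun _ hu => H.conj_mem g hu) (H.idx g) ha hb h

theorem delta_mem (g : G) {u : G} (hu : u ∈ O) : g * u * g⁻¹ * u⁻¹ ∈ O :=
  O.mul_mem (H.conj_mem g hu) (O.inv_mem hu)

/-- A `p'`-element moving `u` moves `[y, u]`. -/
theorem moves_delta {y u : G} (hy : (orderOf y).Coprime p) (hu : u ∈ O)
    (hne : y * u * y⁻¹ * u⁻¹ ≠ 1) : y * (y * u * y⁻¹ * u⁻¹) * y⁻¹ ≠ y * u * y⁻¹ * u⁻¹ := by
  intro hfix
  haveI := H.normal
  obtain ⟨k, hk⟩ := H.pgroup ⟨_, H.delta_mem y hu⟩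
  have hk' : (y * u * y⁻¹ * u⁻¹) ^ p ^ k = 1 := by
    have := congrArg Subtype.val hk
    simpa using this
  refine hne (coprime_fix (u := u) (by group) hfix (m := orderOf y) ?_ H.prime hk' hy)
  rw [pow_orderOf_eq_one]
  group

/-- `⟨[y,u]⟩` is invariant under everything acting compatibly. -/
theorem conj_delta_mem {y z u : G} (hu : u ∈ O)
    (hyz : ∀ w ∈ O, y * (z * w * z⁻¹) * y⁻¹ = z * (y * w * y⁻¹) * z⁻¹)
    (hne : y * u * y⁻¹ * u⁻¹ ≠ 1) :
    z * (y * u * y⁻¹ * u⁻¹) * z⁻¹ ∈ zpowers (y * u * y⁻¹ * u⁻¹) := by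
  have h1 := (H.hl y hu (H.conj_mem z hu) hne).1
  have e : y * (z * u * z⁻¹) * y⁻¹ * (z * u * z⁻¹)⁻¹ = z * (y * u * y⁻¹ * u⁻¹) * z⁻¹ := by
    rw [hyz u hu]
    group
  rwa [e] at h1

/-- `⟨[y,u]⟩` is `y`-invariant. -/
theorem conj_delta_mem_self {y u : G} (hu : u ∈ O) (hne : y * u * y⁻¹ * u⁻¹ ≠ 1) :
    y * (y * u * y⁻¹ * u⁻¹) * y⁻¹ ∈ zpowers (y * u * y⁻¹ * u⁻¹) :=
  H.conj_delta_mem hu (fun _ _ => rfl) hne

/-- **Two lines.**  Let `y` be a `p'`-element moving `O`, and let `z` commute with `y` as operators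
on `O`.  Then `C_O(y) ≤ C_O(z)`. -/
theorem cent_le {y z b : G} (hy : (orderOf y).Coprime p)
    (hyz : ∀ w ∈ O, y * (z * w * z⁻¹) * y⁻¹ = z * (y * w * y⁻¹) * z⁻¹)
    (hmv : ∃ u ∈ O, y * u * y⁻¹ ≠ u) (hb : b ∈ O) (hyb : y * b * y⁻¹ = b) :
    z * b * z⁻¹ = b := by
  by_contra hzb
  obtain ⟨u₀, hu₀, hu⟩ := hmv
  have hne : y * u₀ * y⁻¹ * u₀⁻¹ ≠ 1 := by
    intro h
    exact hu (mul_inv_eq_one.1 h)
  set α := y * u₀ * y⁻¹ * u₀⁻¹ with hα
  have hαO : α ∈ O := H.delta_mem y hu₀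
  have hαp : α ^ p = 1 := (H.hl y hu₀ hu₀ hne).2
  have hyα : y * α * y⁻¹ ≠ α := H.moves_delta hy hu₀ hne
  have hyαm : y * α * y⁻¹ ∈ zpowers α := H.conj_delta_mem_self hu₀ hne
  have hzαm : z * α * z⁻¹ ∈ zpowers α := H.conj_delta_mem hu₀ hyz hne
  -- choose `t`
  obtain ⟨t, ht1, ht2, ht3, ht4⟩ : ∃ t : G, t * α * t⁻¹ ≠ α ∧ t * α * t⁻¹ ∈ zpowers α ∧
      t * b * t⁻¹ ≠ b ∧ y * (t * b * t⁻¹) * y⁻¹ = t * b * t⁻¹ := by
    have hzb' : y * (z * b * z⁻¹) * y⁻¹ = z * b * z⁻¹ := by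
      rw [hyz b hb, hyb]
    by_cases hzα : z * α * z⁻¹ = α
    · refine ⟨y * z, ?_, ?_, ?_, ?_⟩
      · have e : y * z * α * (y * z)⁻¹ = y * (z * α * z⁻¹) * y⁻¹ := by group
        rw [e, hzα]
        exact hyα
      · have e : y * z * α * (y * z)⁻¹ = y * (z * α * z⁻¹) * y⁻¹ := by group
        rw [e, hzα]
        exact hyαm
      · have e : y * z * b * (y * z)⁻¹ = y * (z * b * z⁻¹) * y⁻¹ := by group
        rw [e, hzb']
        exact hzb
      · have e : y * z * b * (y * z)⁻¹ = y * (z * b * z⁻¹) * y⁻¹ := by group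
        rw [e, hzb']
        exact hzb'
    · exact ⟨z, hzα, hzαm, hzb, hzb'⟩
  have hγne : t * α * t⁻¹ * α⁻¹ ≠ 1 := fun h => ht1 (mul_inv_eq_one.1 h)
  have hβne : t * b * t⁻¹ * b⁻¹ ≠ 1 := fun h => ht3 (mul_inv_eq_one.1 h)
  set γ := t * α * t⁻¹ * α⁻¹ with hγ
  set β := t * b * t⁻¹ * b⁻¹ with hβ
  have hγα : γ ∈ zpowers α :=
    (zpowers α).mul_mem ht2 ((zpowers α).inv_mem (mem_zpowers α))
  have hγβ : γ ∈ zpowers β := (H.hl t hb hαO hβne).1
  have hyβ : y * β * y⁻¹ = β := by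
    have e : y * β * y⁻¹ = (y * (t * b * t⁻¹) * y⁻¹) * (y * b * y⁻¹)⁻¹ := by
      rw [hβ]; group
    rw [e, ht4, hyb]
  have hyγ : y * γ * y⁻¹ = γ := by
    obtain ⟨k, hk⟩ := hγβ
    rw [← hk, ← MulAut.conj_apply, map_zpow, MulAut.conj_apply, hyβ]
  have hαγ : α ∈ zpowers γ := mem_zpowers_of_prime H.prime hαp hγα hγne
  apply hyα
  obtain ⟨k, hk⟩ := hαγ
  rw [← hk, ← MulAut.conj_apply, map_zpow, MulAut.conj_apply, hyγ]

/-- **Same line.**  Two commuting `p'`-elements moving `O` have the same commutator line. -/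
theorem same_line {y z u₀ u₁ : G} (hy : (orderOf y).Coprime p) (hz : (orderOf z).Coprime p)
    (hyz : ∀ w ∈ O, y * (z * w * z⁻¹) * y⁻¹ = z * (y * w * y⁻¹) * z⁻¹) (hu₀ : u₀ ∈ O) (hu₁ : u₁ ∈ O)
    (h0 : y * u₀ * y⁻¹ * u₀⁻¹ ≠ 1) (h1 : z * u₁ * z⁻¹ * u₁⁻¹ ≠ 1) :
    z * u₁ * z⁻¹ * u₁⁻¹ ∈ zpowers (y * u₀ * y⁻¹ * u₀⁻¹) := by
  have hzy : ∀ w ∈ O, z * (y * w * y⁻¹) * z⁻¹ = y * (z * w * z⁻¹) * y⁻¹ :=
    fun w hw => (hyz w hw).symm
  set α := y * u₀ * y⁻¹ * u₀⁻¹ with hα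
  set β := z * u₁ * z⁻¹ * u₁⁻¹ with hβ
  have hαO : α ∈ O := H.delta_mem y hu₀
  have hβO : β ∈ O := H.delta_mem z hu₁
  have hβp : β ^ p = 1 := (H.hl z hu₁ hu₁ h1).2
  have hyα : y * α * y⁻¹ ≠ α := H.moves_delta hy hu₀ h0
  have hzβ : z * β * z⁻¹ ≠ β := H.moves_delta hz hu₁ h1
  have hyαm : y * α * y⁻¹ ∈ zpowers α := H.conj_delta_mem_self hu₀ h0
  have hzαm : z * α * z⁻¹ ∈ zpowers α := H.conj_delta_mem hu₀ hyz h0
  have hzβm : z * β * z⁻¹ ∈ zpowers β := H.conj_delta_mem_self hu₁ h1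
  have hyβm : y * β * y⁻¹ ∈ zpowers β := H.conj_delta_mem hu₁ hzy h1
  obtain ⟨t, ht1, ht2, ht3, ht4⟩ : ∃ t : G, t * α * t⁻¹ ≠ α ∧ t * α * t⁻¹ ∈ zpowers α ∧
      t * β * t⁻¹ ≠ β ∧ t * β * t⁻¹ ∈ zpowers β := by
    by_cases hyβ : y * β * y⁻¹ = β
    · by_cases hzα : z * α * z⁻¹ = α
      · refine ⟨y * z, ?_, ?_, ?_, ?_⟩
        · have e : y * z * α * (y * z)⁻¹ = y * (z * α * z⁻¹) * y⁻¹ := by group
          rw [e, hzα]
          exact hyα
        · have e : y * z * α * (y * z)⁻¹ = y * (z * α * z⁻¹) * y⁻¹ := by group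
          rw [e, hzα]
          exact hyαm
        · have e : y * z * β * (y * z)⁻¹ = z * (y * β * y⁻¹) * z⁻¹ := by
            rw [← hyz β hβO]
            group
          rw [e, hyβ]
          exact hzβ
        · have e : y * z * β * (y * z)⁻¹ = z * (y * β * y⁻¹) * z⁻¹ := by
            rw [← hyz β hβO]
            group
          rw [e, hyβ]
          exact hzβm
      · exact ⟨z, hzα, hzαm, hzβ, hzβm⟩
    · exact ⟨y, hyα, hyαm, hyβ, hyβm⟩
  have hγne : t * α * t⁻¹ * α⁻¹ ≠ 1 := fun h => ht1 (mul_inv_eq_one.1 h)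
  have hγ'ne : t * β * t⁻¹ * β⁻¹ ≠ 1 := fun h => ht3 (mul_inv_eq_one.1 h)
  have h2 : t * β * t⁻¹ * β⁻¹ ∈ zpowers (t * α * t⁻¹ * α⁻¹) := (H.hl t hαO hβO hγne).1
  have h3 : t * α * t⁻¹ * α⁻¹ ∈ zpowers α :=
    (zpowers α).mul_mem ht2 ((zpowers α).inv_mem (mem_zpowers α))
  have h4 : t * β * t⁻¹ * β⁻¹ ∈ zpowers α := (Subgroup.zpowers_le.2 h3) h2
  have h5 : t * β * t⁻¹ * β⁻¹ ∈ zpowers β :=
    (zpowers β).mul_mem ht4 ((zpowers β).inv_mem (mem_zpowers β))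
  have h6 : β ∈ zpowers (t * β * t⁻¹ * β⁻¹) := mem_zpowers_of_prime H.prime hβp h5 hγ'ne
  exact (Subgroup.zpowers_le.2 h4) h6

end AbHyp

end Lines

end Cfsg.Agent.Lib.Nilpotent.Sqf
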