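import Mathlib
import Cfsg.Agent.Lib.Nilpotent.Sqf.Basic

/-!
# `p`-groups with class sizes at most `p`; nonabelian normal `p`-subgroups

Knoche's theorem: a finite `p`-group all of whose classes have size dividing `p` has derived
subgroup of order dividing `p`.  And: a normal `p`-subgroup moved by a `p'`-element, with all
`|O : C_O(g)| ∣ p`, is abelian.
-/

set_option autoImplicit false

namespace Cfsg.Agent.Lib.Nilpotent.Sqf

open Subgroup Cfsg.Agent.Lib.ClassSize.Basic Cfsg.Agent.Lib.PGroup.FrattiniBasis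
open scoped commutatorElement

universe u

theorem isCoatom_of_index_prime {X : Type*} [Group X] [Finite X] {M : Subgroup X}
    (h : M.index.Prime) : IsCoatom M := by
  refine ⟨?_, fun K hK => ?_⟩
  · rintro rfl
    rw [Subgroup.index_top] at h
    exact Nat.not_prime_one h
  · have hd : K.index ∣ M.index := Subgroup.index_dvd_of_le hK.le
    rcases (Nat.dvd_prime h).1 hd with h1 | h1
    · exact Subgroup.index_eq_one.1 h1
    · exact absurd (eq_of_le_of_index_eq hK.le h1.symm) hK.ne

theorem commutator_le_of_index_dvd {X : Type*} [Group X] [Finite X] {p : ℕ} [hp : Fact p.Prime]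
    (hX : IsPGroup p X) {M : Subgroup X} (hM : M.index ∣ p) : commutator X ≤ M := by
  rcases (Nat.dvd_prime hp.out).1 hM with h1 | h1
  · rw [Subgroup.index_eq_one.1 h1]
    exact le_top
  · exact commutator_le_coatom hX (isCoatom_of_index_prime (h1 ▸ hp.out))

theorem frattini_le_of_index_dvd {X : Type*} [Group X] [Finite X] {p : ℕ} [hp : Fact p.Prime]
    {M : Subgroup X} (hM : M.index ∣ p) : frattini X ≤ M := by
  rcases (Nat.dvd_prime hp.out).1 hM with h1 | h1
  · rw [Subgroup.index_eq_one.1 h1]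
    exact le_top
  · intro x hx
    exact mem_frattini_iff.1 hx M (isCoatom_of_index_prime (h1 ▸ hp.out))

section Knoche

variable {X : Type u} [Group X] [Finite X] {p : ℕ} [hp : Fact p.Prime]

/-- Class two. -/
theorem commutator_central (hX : IsPGroup p X) (hidx : ∀ x : X, (cent x).index ∣ p) (a b c : X) :
    ⁅a, b⁆ * c = c * ⁅a, b⁆ := by
  have h1 : ⁅a, b⁆ ∈ commutator X := by
    rw [_root_.commutator_def]
    exact Subgroup.commutator_mem_commutator (Subgroup.mem_top a) (Subgroup.mem_top b)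
  have h2 := commutator_le_of_index_dvd hX (hidx c) h1
  rw [mem_cent_iff] at h2
  exact h2.symm

/-- The commutator map as a homomorphism. -/
def kdelta (hc : ∀ a b c : X, ⁅a, b⁆ * c = c * ⁅a, b⁆) (x : X) : X →* X :=
  MonoidHom.mk' (fun u => ⁅x, u⁆) (by
    intro u v
    simp only [commutatorElement_def]
    have h := hc x v u
    simp only [commutatorElement_def] at h
    calc x * (u * v) * x⁻¹ * (u * v)⁻¹
        = (x * u * x⁻¹ * u⁻¹) * (u * (x * v * x⁻¹ * v⁻¹)) * u⁻¹ := by group
      _ = (x * u * x⁻¹ * u⁻¹) * ((x * v * x⁻¹ * v⁻¹) * u) * u⁻¹ := by rw [h]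
      _ = _ := by group)

theorem klin (hX : IsPGroup p X) (hidx : ∀ x : X, (cent x).index ∣ p)
    (x a b : X) (h : ⁅x, a⁆ ≠ 1) : ⁅x, b⁆ ∈ zpowers ⁅x, a⁆ ∧ ⁅x, a⁆ ^ p = 1 := by
  have hc := commutator_central hX hidx
  have hker : (kdelta hc x).ker = cent x := by
    ext u
    rw [MonoidHom.mem_ker, mem_cent_iff]
    show ⁅x, u⁆ = 1 ↔ _
    rw [commutatorElement_eq_one_iff_mul_comm]
  have hf : Nat.card (kdelta hc x).range ∣ p := by
    rw [← Subgroup.index_ker, hker]
    exact hidx x
  exact mem_zpowers_of_range_dvd hp.out (kdelta hc x) hf (a := a) h b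

theorem commutator_mul_left_of_central (hc : ∀ a b c : X, ⁅a, b⁆ * c = c * ⁅a, b⁆) (x y u : X) :
    ⁅x * y, u⁆ = ⁅x, u⁆ * ⁅y, u⁆ := by
  simp only [commutatorElement_def]
  have e : x * y * u * (x * y)⁻¹ * u⁻¹ = x * (y * u * y⁻¹ * u⁻¹) * u * x⁻¹ * u⁻¹ := by group
  rw [e]
  have h2 := hc y u (u * x⁻¹ * u⁻¹)
  have h3 := hc y u x
  simp only [commutatorElement_def] at h2 h3
  calc x * (y * u * y⁻¹ * u⁻¹) * u * x⁻¹ * u⁻¹
      = x * (y * u * y⁻¹ * u⁻¹) * (u * x⁻¹ * u⁻¹) := by group
    _ = x * (u * x⁻¹ * u⁻¹) * (y * u * y⁻¹ * u⁻¹) := by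
        rw [mul_assoc x, h2, mul_assoc x]
    _ = x * u * x⁻¹ * u⁻¹ * (y * u * y⁻¹ * u⁻¹) := by group

/-- All nontrivial commutators lie on one line. -/
theorem one_line (hX : IsPGroup p X) (hidx : ∀ x : X, (cent x).index ∣ p) {x u y v : X}
    (h1 : ⁅x, u⁆ ≠ 1) (h2 : ⁅y, v⁆ ≠ 1) : ⁅y, v⁆ ∈ zpowers ⁅x, u⁆ := by
  have hc := commutator_central hX hidx
  have hk := klin hX hidx
  have hinv : ∀ a b : X, ⁅a, b⁆ ≠ 1 → ⁅b, a⁆ ≠ 1 := by
    intro a b h
    rw [← commutatorElement_inv]
    exact inv_ne_one.2 h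
  have hzinv : ∀ a b : X, zpowers ⁅b, a⁆ = zpowers ⁅a, b⁆ := by
    intro a b
    rw [← commutatorElement_inv, Subgroup.zpowers_inv]
  by_cases hyu : ⁅y, u⁆ = 1
  · by_cases hxv : ⁅x, v⁆ = 1
    · have e1 : ⁅x * y, u⁆ = ⁅x, u⁆ := by
        rw [commutator_mul_left_of_central hc, hyu, mul_one]
      have e2 : ⁅x * y, v⁆ = ⁅y, v⁆ := by
        rw [commutator_mul_left_of_central hc, hxv, one_mul]
      have := (hk (x * y) u v (by rw [e1]; exact h1)).1
      rwa [e1, e2] at this
    · have h3 := (hk v x y (hinv _ _ hxv)).1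
      rw [hzinv x v] at h3
      have h4 : ⁅y, v⁆ ∈ zpowers ⁅x, v⁆ := by
        have := inv_mem h3
        rwa [commutatorElement_inv] at this
      exact (Subgroup.zpowers_le.2 (hk x u v h1).1) h4
  · have h3 := (hk u x y (hinv _ _ h1)).1
    rw [hzinv x u] at h3
    have h4 : ⁅y, u⁆ ∈ zpowers ⁅x, u⁆ := by
      have := inv_mem h3
      rwa [commutatorElement_inv] at this
    exact (Subgroup.zpowers_le.2 h4) (hk y u v hyu).1

/-- **Knoche.** -/
theorem card_commutator_dvd (hX : IsPGroup p X) (hidx : ∀ x : X, (cent x).index ∣ p) :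
    Nat.card (commutator X) ∣ p := by
  by_cases h : ∀ x u : X, ⁅x, u⁆ = 1
  · have : commutator X = ⊥ := by
      rw [_root_.commutator_def, eq_bot_iff, Subgroup.commutator_le]
      intro a _ b _
      rw [h a b]
      exact one_mem _
    rw [this, Subgroup.card_bot]
    exact one_dvd _
  · push Not at h
    obtain ⟨x, u, hne⟩ := h
    have hle : commutator X ≤ zpowers ⁅x, u⁆ := by
      rw [_root_.commutator_def, Subgroup.commutator_le]
      intro a _ b _
      by_cases hab : ⁅a, b⁆ = 1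
      · rw [hab]
        exact one_mem _
      · exact one_line hX hidx hne hab
    have hcard : Nat.card (zpowers ⁅x, u⁆) = p := by
      rw [Nat.card_zpowers]
      exact orderOf_eq_prime (klin hX hidx x u u hne).2 hne
    rw [← hcard]
    exact Subgroup.card_dvd_of_le hle

end Knoche

section Moved

variable {G : Type u} [Group G] [Finite G] {p : ℕ} {O : Subgroup G}

/-- A normal `p`-subgroup moved by a `p'`-element is abelian. -/
theorem abelian_of_moved (hp : p.Prime) (hO : IsPGroup p O) (hn : O.Normal)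
    (hidx : ∀ g : G, (cent g).relIndex O ∣ p) {y : G} (hy : (orderOf y).Coprime p)
    (hmv : ∃ u ∈ O, y * u * y⁻¹ ≠ u) : ∀ a ∈ O, ∀ b ∈ O, a * b = b * a := by
  haveI : Fact p.Prime := ⟨hp⟩
  obtain ⟨u₀, hu₀, hmv₀⟩ := hmv
  set A : Subgroup O := (cent y).subgroupOf O with hA
  have hAidx : A.index = p := by
    refine ((Nat.dvd_prime hp).1 (hidx y)).resolve_left ?_
    intro h1
    have h2 : A = ⊤ := Subgroup.index_eq_one.1 h1
    have h3 : (⟨u₀, hu₀⟩ : O) ∈ A := h2 ▸ Subgroup.mem_top _
    have h4 : y * u₀ = u₀ * y := by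
      rw [Subgroup.mem_subgroupOf, mem_cent_iff] at h3
      exact h3
    apply hmv₀
    rw [h4]
    group
  have hcom : commutator O ≤ A := commutator_le_of_index_dvd hO (by rw [hAidx])
  have claim1 : ∀ v : O, (cent ((v : G) * y)).subgroupOf O ≤ A := by
    rintro v ⟨u, hu⟩ hmem
    rw [Subgroup.mem_subgroupOf, mem_cent_iff] at hmem
    have hmem' : (v : G) * y * u = u * ((v : G) * y) := hmem
    -- `c = [v⁻¹, u]`
    set c : G := (v : G)⁻¹ * u * v * u⁻¹ with hc
    have hcA : (⟨c, O.mul_mem (O.mul_mem (O.mul_mem (O.inv_mem v.2) hu) v.2) (O.inv_mem hu)⟩ : O) ∈ A := by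
      apply hcom
      have : (⟨c, O.mul_mem (O.mul_mem (O.mul_mem (O.inv_mem v.2) hu) v.2) (O.inv_mem hu)⟩ : O) =
          ⁅v⁻¹, (⟨u, hu⟩ : O)⁆ := by
        apply Subtype.ext
        simp [commutatorElement_def, hc]
      rw [this, _root_.commutator_def]
      exact Subgroup.commutator_mem_commutator (Subgroup.mem_top _) (Subgroup.mem_top _)
    have hyc : y * c = c * y := by
      rw [hA, Subgroup.mem_subgroupOf, mem_cent_iff] at hcA
      exact hcA
    have h1 : y * u * y⁻¹ = c * u := by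
      have : y * u = (v : G)⁻¹ * ((v : G) * y * u) := by group
      rw [this, hmem', hc]
      group
    have hc1 : c = 1 := by
      obtain ⟨k, hk⟩ := hO ⟨c, O.mul_mem (O.mul_mem (O.mul_mem (O.inv_mem v.2) hu) v.2) (O.inv_mem hu)⟩
      have hk' : c ^ p ^ k = 1 := by
        have := congrArg Subtype.val hk
        simpa using this
      refine coprime_fix h1 (by rw [hyc]; group) (m := orderOf y) ?_ hp hk' hy
      rw [pow_orderOf_eq_one]
      group
    rw [hc1, one_mul] at h1
    rw [hA, Subgroup.mem_subgroupOf, mem_cent_iff]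
    exact mul_inv_eq_iff_eq_mul.1 h1
  have claim2 : ∀ v : O, A ≤ (cent ((v : G) * y)).subgroupOf O := by
    intro v
    have hd : ((cent ((v : G) * y)).subgroupOf O).index ∣ p := hidx _
    have hd2 : A.index ∣ ((cent ((v : G) * y)).subgroupOf O).index :=
      Subgroup.index_dvd_of_le (claim1 v)
    rw [hAidx] at hd2
    have heq : ((cent ((v : G) * y)).subgroupOf O).index = A.index := by
      rw [hAidx]
      exact Nat.dvd_antisymm hd hd2
    exact (eq_of_le_of_index_eq (claim1 v) heq).ge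
  have hAnorm : A.Normal := coatom_normal hO (isCoatom_of_index_prime (hAidx ▸ hp))
  have hAcenter : A ≤ center O := by
    intro a ha
    rw [Subgroup.mem_center_iff]
    intro v
    have h1 := claim2 v ha
    rw [Subgroup.mem_subgroupOf, mem_cent_iff] at h1
    have h1' : (v : G) * y * a = a * ((v : G) * y) := h1
    have h2 : y * (a : G) = a * y := by
      rw [hA, Subgroup.mem_subgroupOf, mem_cent_iff] at ha
      exact ha
    apply Subtype.ext
    show (v : G) * a = a * v
    have h3 : (v : G) * a * y = a * v * y := by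
      rw [mul_assoc, ← h2, ← mul_assoc, h1', mul_assoc]
    exact mul_right_cancel h3
  haveI : IsCyclic (O ⧸ A) := isCyclic_of_prime_card (p := p) hAidx
  intro a ha b hb
  have := commutative_of_cyclic_center_quotient (QuotientGroup.mk' A)
    (by rw [QuotientGroup.ker_mk']; exact hAcenter) (⟨a, ha⟩ : O) ⟨b, hb⟩
  exact congrArg Subtype.val this

end Moved

end Cfsg.Agent.Lib.Nilpotent.Sqf
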