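import Mathlib
import Cfsg.Agent.Lib.Nilpotent.Sqf.Knoche
import Cfsg.Agent.Lib.Transfer.Frobenius
import Cfsg.Agent.Lib.Transfer.Basic
import Cfsg.Agent.Lib.Nilpotent.PClasses
import Cfsg.Agent.Lib.Basic.JordanCover

/-!
# Groups with squarefree class sizes are solvable

For the smallest prime `p`, the group has a normal `p`-complement.  The Frattini subgroup of a Sylow
`p`-subgroup is central; modulo it the Sylow subgroup is abelian, and a counting argument shows that
its normalizer equals its centralizer.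
-/

set_option autoImplicit false

namespace Cfsg.Agent.Lib.Nilpotent.Sqf

open Subgroup Cfsg.Agent.Lib.ClassSize.Basic Cfsg.Agent.Lib.PGroup.FrattiniBasis
open Cfsg.Agent.Lib.Transfer.Basic Cfsg.Agent.Lib.Nilpotent.PClasses
open scoped commutatorElement

universe u

theorem eig_act {Q : Type*} [Group Q] {p : ℕ} [hp : Fact p.Prime] {a w : Q} {k : ℕ}
    (hwp : w ^ p = 1) (hk : a * w * a⁻¹ = w ^ k) {j : ℕ} (hj : a ^ j * w * (a ^ j)⁻¹ = w)
    (hjp : j.Coprime (p - 1)) : a * w * a⁻¹ = w := by
  have key : ∀ i : ℕ, a ^ i * w * (a ^ i)⁻¹ = w ^ (k ^ i) := by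
    intro i
    induction i with
    | zero => simp
    | succ i ih =>
      have e : a ^ (i + 1) * w * (a ^ (i + 1))⁻¹ = a * (a ^ i * w * (a ^ i)⁻¹) * a⁻¹ := by
        rw [pow_succ']; group
      rw [e, ih, ← conj_pow, hk, ← pow_mul, pow_succ']
  by_cases hw : w = 1
  · simp [hw]
  have hord : orderOf w = p := orderOf_eq_prime hwp hw
  have h1 := key j
  rw [hj] at h1
  have h2 : w ^ 1 = w ^ (k ^ j) := by rw [pow_one]; exact h1
  rw [pow_eq_pow_iff_modEq, hord] at h2
  have h3 : ((k : ZMod p)) ^ j = 1 := by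
    have := (ZMod.natCast_eq_natCast_iff _ _ p).mpr h2
    push_cast at this
    exact this.symm
  have hk0 : (k : ZMod p) ≠ 0 := by
    intro h0
    have hd : p ∣ k := (ZMod.natCast_eq_zero_iff k p).mp h0
    have h4 : w ^ k = 1 := by
      obtain ⟨c, rfl⟩ := hd
      rw [pow_mul, hwp, one_pow]
    rw [h4] at hk
    apply hw
    have : a⁻¹ * (a * w * a⁻¹) * a = w := by group
    rw [← this, hk]; group
  have h4 : ((k : ZMod p)) ^ (p - 1) = 1 := ZMod.pow_card_sub_one_eq_one hk0
  have h5 := pow_gcd_eq_one.mpr ⟨h3, h4⟩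
  rw [hjp, pow_one] at h5
  have h6 : k ≡ 1 [MOD orderOf w] := by
    rw [hord]
    apply (ZMod.natCast_eq_natCast_iff _ _ p).mp
    simpa using h5
  rw [hk]
  have := (pow_eq_pow_iff_modEq (x := w)).mpr h6
  simpa using this

variable {G : Type u} [Group G] [Finite G] {p : ℕ} [hp : Fact p.Prime]

/-- An element of "small" order with `|O : C_O(n)| = p` centralizes `O`. -/
theorem fix_of_index_prime {O : Subgroup G} (hO : IsPGroup p O)
    (hab : ∀ a ∈ O, ∀ b ∈ O, a * b = b * a) {n : G} (hg : ∀ u ∈ O, n * u * n⁻¹ ∈ O)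
    (hidx : (cent n).relIndex O ∣ p) {w : ℕ} (hw : ∀ u ∈ O, n ^ w * u * (n ^ w)⁻¹ = u)
    (hwp : w.Coprime p) (hw1 : w.Coprime (p - 1)) : ∀ u ∈ O, n * u * n⁻¹ = u := by
  by_contra hcon
  push Not at hcon
  obtain ⟨u₀, hu₀, hne⟩ := hcon
  have hne' : n * u₀ * n⁻¹ * u₀⁻¹ ≠ 1 := fun h => hne (mul_inv_eq_one.1 h)
  set α := n * u₀ * n⁻¹ * u₀⁻¹ with hα
  have hαO : α ∈ O := O.mul_mem (hg _ hu₀) (O.inv_mem hu₀)
  obtain ⟨-, hαp⟩ := hline hp.out hab hg hidx hu₀ hu₀ hne'
  have h1 := (hline hp.out hab hg hidx hu₀ (hg _ hu₀) hne').1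
  have e : n * (n * u₀ * n⁻¹) * n⁻¹ * (n * u₀ * n⁻¹)⁻¹ = n * α * n⁻¹ := by
    rw [hα]; group
  rw [e] at h1
  have hfin : IsOfFinOrder α := by
    rw [isOfFinOrder_iff_pow_eq_one]
    exact ⟨p, hp.out.pos, hαp⟩
  obtain ⟨k, hk⟩ := (hfin.mem_powers_iff_mem_zpowers).2 h1
  have hfix : n * α * n⁻¹ = α := eig_act hαp hk.symm (hw _ hαO) hw1
  obtain ⟨j, hj⟩ := hO ⟨α, hαO⟩
  have hj' : α ^ p ^ j = 1 := by
    have := congrArg Subtype.val hj
    simpa using this
  exact hne' (coprime_fix (u := u₀) (by rw [hα]; group) hfix (hw _ hu₀) hp.out hj' hwp)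

/-- Burnside counting. -/
theorem card_orbits_le₂ {N X : Type*} [Group N] [Finite N] [MulAction N X] [Finite X] (p : ℕ)
    (hp : 1 ≤ p) (C : Subgroup N)
    (hC : ∀ n : N, n ∉ C → p ^ 2 * Nat.card (MulAction.fixedBy X n) ≤ Nat.card X)
    (hidx : p + 1 ≤ C.index) :
    p * Nat.card (MulAction.orbitRel.Quotient N X) ≤ Nat.card X := by
  classical
  haveI := Fintype.ofFinite N
  haveI := Fintype.ofFinite X
  haveI : Fintype (MulAction.orbitRel.Quotient N X) := Fintype.ofFinite _
  have hb := MulAction.sum_card_fixedBy_eq_card_orbits_mul_card_group N X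
  simp only [← Nat.card_eq_fintype_card] at hb
  set c := Nat.card C with hc
  set n := Nat.card N with hn
  set x := Nat.card X with hx
  set o := Nat.card (MulAction.orbitRel.Quotient N X) with ho
  have hb' : ∑ g : N, Nat.card (MulAction.fixedBy X g) = o * n := hb
  have hfix : ∀ g : N, p ^ 2 * Nat.card (MulAction.fixedBy X g) ≤ if g ∈ C then p ^ 2 * x else x := by
    intro g
    split_ifs with hg
    · apply Nat.mul_le_mul_left
      exact Nat.card_mono (Set.toFinite _) (Set.subset_univ _) |>.trans (by simp [hx])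
    · exact hC g hg
  have hsum : p ^ 2 * (o * n) ≤ c * (p ^ 2 * x) + (n - c) * x := by
    rw [← hb', Finset.mul_sum]
    refine (Finset.sum_le_sum fun g _ => hfix g).trans ?_
    rw [Finset.sum_ite]
    simp only [Finset.sum_const, smul_eq_mul]
    have h1 : (Finset.univ.filter fun g : N => g ∈ C).card = c := by
      rw [hc, Nat.card_eq_fintype_card, Fintype.card_subtype]
    have h2 : (Finset.univ.filter fun g : N => g ∉ C).card = n - c := by
      rw [Finset.filter_not, Finset.card_sdiff_of_subset (Finset.filter_subset _ _), h1,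
        Finset.card_univ, hn, Nat.card_eq_fintype_card]
    rw [h1, h2]
  have hmul : c * C.index = n := Subgroup.card_mul_index C
  obtain ⟨e, he⟩ : ∃ e, C.index = p + 1 + e := ⟨C.index - (p + 1), by omega⟩
  rw [he] at hmul
  have hcpos : 0 < c := Nat.card_pos
  have hnc : n - c = c * (p + e) := by
    rw [← hmul]
    have : c * (p + 1 + e) = c * (p + e) + c := by ring
    omega
  rw [hnc, ← hmul] at hsum
  have h1 : p ^ 2 * (o * (p + 1 + e)) ≤ p ^ 2 * x + (p + e) * x := by
    apply Nat.le_of_mul_le_mul_left _ hcpos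
    calc c * (p ^ 2 * (o * (p + 1 + e))) = p ^ 2 * (o * (c * (p + 1 + e))) := by ring
      _ ≤ c * (p ^ 2 * x) + c * (p + e) * x := hsum
      _ = c * (p ^ 2 * x + (p + e) * x) := by ring
  have h2 : p ^ 2 * x + (p + e) * x ≤ p * (p + 1 + e) * x := by
    have : p ^ 2 + (p + e) ≤ p * (p + 1 + e) := by nlinarith
    calc p ^ 2 * x + (p + e) * x = (p ^ 2 + (p + e)) * x := by ring
      _ ≤ _ := Nat.mul_le_mul_right _ this
  have h3 : (p * (p + 1 + e)) * (p * o) ≤ (p * (p + 1 + e)) * x := by
    calc (p * (p + 1 + e)) * (p * o) = p ^ 2 * (o * (p + 1 + e)) := by ring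
      _ ≤ _ := h1.trans h2
  exact Nat.le_of_mul_le_mul_left h3 (by positivity)

/-- The `p`-elements. -/
abbrev PElt (p : ℕ) (A : Type*) [Group A] := {u : A // ∃ k : ℕ, orderOf u = p ^ k}

/-- Conjugation on `p`-elements. -/
instance pEltAction (p : ℕ) (A : Type*) [Group A] : MulAction A (PElt p A) where
  smul a u := ⟨a * u * a⁻¹, by rw [orderOf_conj_eq]; exact u.2⟩
  one_smul u := Subtype.ext (by
    show (1 : A) * u * (1 : A)⁻¹ = u
    simp)
  mul_smul a b u := Subtype.ext (by
    show (a * b) * (u : A) * (a * b)⁻¹ = a * (b * (u : A) * b⁻¹) * a⁻¹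
    group)

theorem mem_fixedBy_pElt {A : Type*} [Group A] {a : A} {u : PElt p A} :
    u ∈ MulAction.fixedBy (PElt p A) a ↔ a * (u : A) * a⁻¹ = u := by
  rw [MulAction.mem_fixedBy]
  constructor
  · intro h
    exact congrArg Subtype.val h
  · intro h
    exact Subtype.ext h

theorem sylow_mem_pElt (P : Sylow p G) (x : G) (hx : x ∈ (P : Subgroup G)) :
    ∃ k : ℕ, orderOf x = p ^ k := by
  obtain ⟨k, hk⟩ := (IsPGroup.iff_orderOf.1 P.isPGroup') ⟨x, hx⟩
  exact ⟨k, by rw [← hk, Subgroup.orderOf_mk]⟩

/-- The class of any element meets a Sylow subgroup in a large subgroup of its centralizer. -/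
theorem exists_conj_relIndex (h : Hsq G) (P : Sylow p G) (x : G) :
    ∃ g : G, (cent (g * x * g⁻¹)).relIndex P ∣ p := by
  set K := cent x with hK
  let S : Sylow p K := default
  set W : Subgroup G := (S : Subgroup K).map K.subtype with hW
  have hWp : IsPGroup p W := S.isPGroup'.map K.subtype
  obtain ⟨g, hg⟩ := Cfsg.Agent.Lib.Transfer.Frobenius.exists_conj_mem_of_isPGroup P hWp
  refine ⟨g, ?_⟩
  set T : Subgroup (P : Subgroup G) := (cent (g * x * g⁻¹)).subgroupOf (P : Subgroup G) with hT
  have hWT : Nat.card W ≤ Nat.card T := by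
    refine Nat.card_le_card_of_injective (fun w => ⟨⟨g * w * g⁻¹, hg w w.2⟩, ?_⟩) ?_
    · rw [hT, Subgroup.mem_subgroupOf, mem_cent_iff]
      obtain ⟨k, _, hkw⟩ := w.2
      have hk : x * (w : G) = w * x := by
        rw [← hkw]
        exact mem_cent_iff.1 k.2
      show g * x * g⁻¹ * (g * w * g⁻¹) = g * w * g⁻¹ * (g * x * g⁻¹)
      calc g * x * g⁻¹ * (g * w * g⁻¹) = g * (x * w) * g⁻¹ := by group
        _ = g * (w * x) * g⁻¹ := by rw [hk]
        _ = _ := by group
    · intro w₁ w₂ heq
      have h1 : g * (w₁ : G) * g⁻¹ = g * w₂ * g⁻¹ :=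
        congrArg (fun t : T => ((t : (P : Subgroup G)) : G)) heq
      apply Subtype.ext
      simpa using h1
  have hWc : Nat.card W = Nat.card (S : Subgroup K) :=
    Nat.card_congr ((S : Subgroup K).equivMapOfInjective K.subtype K.subtype_injective).toEquiv.symm
  have hcardG : Nat.card G = Nat.card K * K.index := (Subgroup.card_mul_index K).symm
  have hv : (Nat.card G).factorization p ≤ (Nat.card K).factorization p + 1 := by
    rw [hcardG, Nat.factorization_mul Nat.card_pos.ne' Subgroup.index_ne_zero_of_finite]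
    have : K.index.factorization p ≤ 1 := (h x).natFactorization_le_one p
    simp only [Finsupp.coe_add, Pi.add_apply]
    omega
  have hP : Nat.card (P : Subgroup G) ≤ p * Nat.card T := by
    rw [Sylow.card_eq_multiplicity]
    calc p ^ (Nat.card G).factorization p ≤ p ^ ((Nat.card K).factorization p + 1) :=
          Nat.pow_le_pow_right hp.out.pos hv
      _ = p * Nat.card (S : Subgroup K) := by rw [Sylow.card_eq_multiplicity]; ring
      _ ≤ p * Nat.card T := by
          apply Nat.mul_le_mul_left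
          rw [← hWc]
          exact hWT
  have hmul := Subgroup.card_mul_index T
  have hTpos : 0 < Nat.card T := Nat.card_pos
  have hle : T.index ≤ p := by
    apply Nat.le_of_mul_le_mul_left _ hTpos
    calc Nat.card T * T.index = Nat.card (P : Subgroup G) := hmul
      _ ≤ p * Nat.card T := hP
      _ = Nat.card T * p := by ring
  show T.index ∣ p
  have hd : T.index ∣ Nat.card (P : Subgroup G) := Subgroup.index_dvd_card T
  obtain ⟨n, hn⟩ := IsPGroup.iff_card.1 P.isPGroup'
  rw [hn] at hd
  obtain ⟨j, _, hj⟩ := (Nat.dvd_prime_pow hp.out).1 hd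
  rw [hj] at hle ⊢
  have hj1 : j ≤ 1 := by
    by_contra hcon
    have : p ^ 2 ≤ p ^ j := Nat.pow_le_pow_right hp.out.pos (by omega)
    have hp2 := hp.out.two_le
    nlinarith
  exact pow_dvd_pow p hj1 |>.trans (by simp)

/-- The Frattini subgroup of a Sylow subgroup is central. -/
theorem frattini_central (h : Hsq G) (P : Sylow p G) {u : (P : Subgroup G)}
    (hu : u ∈ frattini (P : Subgroup G)) (x : G) : (u : G) * x = x * u := by
  have htop : cent (u : G) = ⊤ := by
    apply Cfsg.Agent.Lib.Basic.JordanCover.eq_top_of_forall_conj_mem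
    intro x
    obtain ⟨g, hg⟩ := exists_conj_relIndex h P x
    refine ⟨g, ?_⟩
    have h2 := frattini_le_of_index_dvd (X := (P : Subgroup G)) hg hu
    rw [Subgroup.mem_subgroupOf, mem_cent_iff] at h2
    rw [mem_cent_iff]
    exact h2.symm
  have : x ∈ cent (u : G) := htop ▸ Subgroup.mem_top x
  exact mem_cent_iff.1 this

section Count

variable {A : Type u} [Group A] [Finite A]

theorem lower_fix (h : Hsq A) (P : Sylow p A) (a : A) :
    Nat.card (P : Subgroup A) ≤ p * Nat.card (MulAction.fixedBy (PElt p A) a) := by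
  obtain ⟨g, hg⟩ := exists_conj_relIndex h P a
  set T : Subgroup (P : Subgroup A) := (cent (g * a * g⁻¹)).subgroupOf (P : Subgroup A) with hT
  have hinj : Nat.card T ≤ Nat.card (MulAction.fixedBy (PElt p A) a) := by
    refine Nat.card_le_card_of_injective (fun t => ⟨⟨g⁻¹ * ((t : (P : Subgroup A)) : A) * g, ?_⟩, ?_⟩) ?_
    · have := sylow_mem_pElt P _ (t : (P : Subgroup A)).2
      have e := orderOf_conj_eq g⁻¹ ((t : (P : Subgroup A)) : A)
      rw [inv_inv] at e
      rw [e]
      exact this
    · rw [mem_fixedBy_pElt]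
      have ht : (t : (P : Subgroup A)) ∈ (cent (g * a * g⁻¹)).subgroupOf (P : Subgroup A) := t.2
      rw [Subgroup.mem_subgroupOf, mem_cent_iff] at ht
      show a * (g⁻¹ * ((t : (P : Subgroup A)) : A) * g) * a⁻¹ = g⁻¹ * ((t : (P : Subgroup A)) : A) * g
      have e : a * (g⁻¹ * ((t : (P : Subgroup A)) : A) * g) =
          g⁻¹ * (g * a * g⁻¹ * ((t : (P : Subgroup A)) : A)) * g := by group
      rw [e, ht]
      group
    · intro t₁ t₂ heq
      have h1 := congrArg (fun z : MulAction.fixedBy (PElt p A) a => ((z : PElt p A) : A)) heq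
      have h2 : g⁻¹ * ((t₁ : (P : Subgroup A)) : A) * g = g⁻¹ * ((t₂ : (P : Subgroup A)) : A) * g := h1
      apply Subtype.ext
      apply Subtype.ext
      simpa using h2
  have hmul := Subgroup.card_mul_index T
  have hle : T.index ≤ p := Nat.le_of_dvd hp.out.pos hg
  calc Nat.card (P : Subgroup A) = Nat.card T * T.index := hmul.symm
    _ ≤ Nat.card T * p := Nat.mul_le_mul_left _ hle
    _ = p * Nat.card T := by ring
    _ ≤ _ := Nat.mul_le_mul_left _ hinj

theorem card_le_fix_one (P : Sylow p A) :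
    Nat.card (P : Subgroup A) ≤ Nat.card (MulAction.fixedBy (PElt p A) (1 : A)) := by
  refine Nat.card_le_card_of_injective (fun t => ⟨⟨t, sylow_mem_pElt P _ t.2⟩, ?_⟩) ?_
  · rw [mem_fixedBy_pElt]
    simp
  · intro t₁ t₂ heq
    have h1 := congrArg (fun z : MulAction.fixedBy (PElt p A) (1 : A) => ((z : PElt p A) : A)) heq
    exact Subtype.ext h1

theorem lt_orbits (h : Hsq A) (P : Sylow p A) :
    Nat.card (P : Subgroup A) < p * Nat.card (MulAction.orbitRel.Quotient A (PElt p A)) := by
  classical
  haveI := Fintype.ofFinite A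
  haveI : Finite (PElt p A) := inferInstance
  haveI := Fintype.ofFinite (PElt p A)
  haveI : Fintype (MulAction.orbitRel.Quotient A (PElt p A)) := Fintype.ofFinite _
  have hb := MulAction.sum_card_fixedBy_eq_card_orbits_mul_card_group A (PElt p A)
  simp only [← Nat.card_eq_fintype_card] at hb
  set a := Nat.card (P : Subgroup A) with ha
  set o := Nat.card (MulAction.orbitRel.Quotient A (PElt p A)) with ho
  set n := Nat.card A with hn
  have hapos : 0 < a := Nat.card_pos
  have hnpos : 0 < n := Nat.card_pos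
  have hsum : p * a + (n - 1) * a ≤ p * (o * n) := by
    rw [← hb, Finset.mul_sum, ← Finset.add_sum_erase Finset.univ _ (Finset.mem_univ (1 : A))]
    apply Nat.add_le_add
    · exact Nat.mul_le_mul_left _ (card_le_fix_one P)
    · have hcard : (Finset.univ.erase (1 : A)).card = n - 1 := by
        rw [Finset.card_erase_of_mem (Finset.mem_univ _), Finset.card_univ, hn,
          Nat.card_eq_fintype_card]
      calc (n - 1) * a = ∑ _g ∈ Finset.univ.erase (1 : A), a := by
            rw [Finset.sum_const, hcard, smul_eq_mul]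
        _ ≤ _ := Finset.sum_le_sum fun g _ => lower_fix h P g
  have hp2 := hp.out.two_le
  obtain ⟨m, hm⟩ : ∃ m, n = m + 1 := ⟨n - 1, by omega⟩
  have h1 : (n - 1) = m := by omega
  rw [h1] at hsum
  by_contra hcon
  push Not at hcon
  have h2 : p * o * n ≤ a * n := Nat.mul_le_mul_right _ hcon
  rw [hm] at h2 hsum
  nlinarith

/-- The orbits of `p`-elements are covered by the normalizer orbits on a Sylow subgroup. -/
theorem orbits_le (P : Sylow p A) :
    letI : MulAction (Subgroup.normalizer ((P : Subgroup A) : Set A)) (P : Subgroup A) :=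
      conjNormAct (P : Subgroup A)
    Nat.card (MulAction.orbitRel.Quotient A (PElt p A)) ≤
      Nat.card (MulAction.orbitRel.Quotient (Subgroup.normalizer ((P : Subgroup A) : Set A))
        (P : Subgroup A)) := by
  letI : MulAction (Subgroup.normalizer ((P : Subgroup A) : Set A)) (P : Subgroup A) :=
    conjNormAct (P : Subgroup A)
  have hex : ∀ c : MulAction.orbitRel.Quotient A (PElt p A), ∃ x : (P : Subgroup A),
      (Quotient.mk _ (⟨x, sylow_mem_pElt P _ x.2⟩ : PElt p A) :
        MulAction.orbitRel.Quotient A (PElt p A)) = c := by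
    intro c
    induction c using Quotient.inductionOn with
    | h u =>
      obtain ⟨k, hk⟩ := u.2
      have hW : IsPGroup p (Subgroup.zpowers (u : A)) :=
        IsPGroup.of_card (n := k) (by rw [Nat.card_zpowers, hk])
      obtain ⟨y, hy⟩ := Cfsg.Agent.Lib.Transfer.Frobenius.exists_conj_mem_of_isPGroup P hW
      refine ⟨⟨y * u * y⁻¹, hy _ (Subgroup.mem_zpowers _)⟩, ?_⟩
      apply Quotient.sound
      exact MulAction.orbitRel_apply.2 ⟨y, Subtype.ext rfl⟩
  choose f hf using hex
  apply Nat.card_le_card_of_injective (fun c => (Quotient.mk _ (f c) :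
    MulAction.orbitRel.Quotient (Subgroup.normalizer ((P : Subgroup A) : Set A)) (P : Subgroup A)))
  intro c d hcd
  obtain ⟨n, hn⟩ := MulAction.orbitRel_apply.1 (Quotient.exact hcd)
  rw [← hf c, ← hf d]
  apply Quotient.sound
  have h2 : (n : A) * ((f d : (P : Subgroup A)) : A) * (n : A)⁻¹ = f c := congrArg Subtype.val hn
  exact MulAction.orbitRel_apply.2 ⟨(n : A), Subtype.ext h2⟩

/-- **Key.** For the smallest prime, an abelian Sylow subgroup is central in its normalizer. -/
theorem normalizer_le_centralizer' (h : Hsq A) (P : Sylow p A)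
    (hab : ∀ a ∈ (P : Subgroup A), ∀ b ∈ (P : Subgroup A), a * b = b * a)
    (hmin : ∀ q : ℕ, q.Prime → q ∣ Nat.card A → p ≤ q) :
    Subgroup.normalizer ((P : Subgroup A) : Set A) ≤
      Subgroup.centralizer ((P : Subgroup A) : Set A) := by
  by_contra hno
  letI : MulAction (Subgroup.normalizer ((P : Subgroup A) : Set A)) (P : Subgroup A) :=
    conjNormAct (P : Subgroup A)
  let C : Subgroup (Subgroup.normalizer ((P : Subgroup A) : Set A)) := (Subgroup.centralizer ((P : Subgroup A) : Set A)).subgroupOf (Subgroup.normalizer ((P : Subgroup A) : Set A))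
  have hC2 : C ≠ ⊤ := by
    intro hC
    apply hno
    intro n hn
    have : (⟨n, hn⟩ : (Subgroup.normalizer ((P : Subgroup A) : Set A))) ∈ C := hC ▸ Subgroup.mem_top _
    exact Subgroup.mem_subgroupOf.1 this
  have hCnormal : C.Normal := by
    constructor
    intro c hc m
    rw [Subgroup.mem_subgroupOf, Subgroup.mem_centralizer_iff] at hc ⊢
    intro u hu
    have h1 : (m : A)⁻¹ * u * (m : A) ∈ (P : Subgroup A) := by
      have := (Subgroup.mem_normalizer_iff.1 (inv_mem m.2) u).1 hu
      simpa using this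
    have h2 := hc _ h1
    have e : ((m * c * m⁻¹ : (Subgroup.normalizer ((P : Subgroup A) : Set A))) : A) = (m : A) * c * (m : A)⁻¹ := by simp
    rw [e]
    calc u * ((m : A) * c * (m : A)⁻¹) = (m : A) * (((m : A)⁻¹ * u * (m : A)) * c) * (m : A)⁻¹ := by group
      _ = (m : A) * ((c : A) * ((m : A)⁻¹ * u * (m : A))) * (m : A)⁻¹ := by rw [h2]
      _ = _ := by group
  set w := C.index with hw
  have hw1 : w ≠ 1 := fun h1 => hC2 (Subgroup.index_eq_one.1 h1)
  have hw0 : w ≠ 0 := Subgroup.index_ne_zero_of_finite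
  have hwA : w ∣ Nat.card A :=
    (Subgroup.index_dvd_card C).trans (Subgroup.card_subgroup_dvd_card (Subgroup.normalizer ((P : Subgroup A) : Set A)))
  -- `p` does not divide `w`
  have hpw : ¬ p ∣ w := by
    intro hd
    have hPC : (P : Subgroup A).subgroupOf (Subgroup.normalizer ((P : Subgroup A) : Set A)) ≤ C := by
      rintro ⟨u, _⟩ hu
      rw [Subgroup.mem_subgroupOf] at hu
      rw [Subgroup.mem_subgroupOf, Subgroup.mem_centralizer_iff]
      intro v hv
      exact hab _ hv _ hu
    have hcP : Nat.card ((P : Subgroup A).subgroupOf (Subgroup.normalizer ((P : Subgroup A) : Set A))) = Nat.card (P : Subgroup A) := by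
      refine Nat.card_congr (Subgroup.subgroupOfEquivOfLe ?_).toEquiv
      intro u hu
      rw [Subgroup.mem_normalizer_iff]
      intro v
      constructor
      · intro hv
        exact (P : Subgroup A).mul_mem ((P : Subgroup A).mul_mem hu hv) ((P : Subgroup A).inv_mem hu)
      · intro hv
        have := (P : Subgroup A).mul_mem ((P : Subgroup A).mul_mem ((P : Subgroup A).inv_mem hu) hv) hu
        simpa [mul_assoc] using this
    have h1 : Nat.card (P : Subgroup A) ∣ Nat.card C := by
      rw [← hcP]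
      exact Subgroup.card_dvd_of_le hPC
    have h2 : p * Nat.card (P : Subgroup A) ∣ Nat.card A := by
      calc p * Nat.card (P : Subgroup A) ∣ w * Nat.card C := Nat.mul_dvd_mul hd h1
        _ = Nat.card (Subgroup.normalizer ((P : Subgroup A) : Set A)) := Subgroup.index_mul_card C
        _ ∣ Nat.card A := Subgroup.card_subgroup_dvd_card (Subgroup.normalizer ((P : Subgroup A) : Set A))
    rw [← Subgroup.card_mul_index (P : Subgroup A), mul_comm p] at h2
    exact P.not_dvd_index (Nat.dvd_of_mul_dvd_mul_left Nat.card_pos h2)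
  have hprimes : ∀ q : ℕ, q.Prime → q ∣ w → p < q := by
    intro q hq hqw
    have h1 := hmin q hq (hqw.trans hwA)
    refine lt_of_le_of_ne h1 ?_
    rintro rfl
    exact hpw hqw
  have hwp : w.Coprime p := ((Nat.Prime.coprime_iff_not_dvd hp.out).2 hpw).symm
  have hwp1 : w.Coprime (p - 1) := by
    apply Nat.coprime_of_dvd
    intro q hq hqw hqp
    have h1 := hprimes q hq hqw
    have h2 := Nat.le_of_dvd (by have := hp.out.two_le; omega) hqp
    omega
  have hidx : p + 1 ≤ w := by
    have h1 := hprimes _ (Nat.minFac_prime hw1) (Nat.minFac_dvd w)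
    have h2 := Nat.minFac_le_of_dvd (n := w) (m := w) (by omega) dvd_rfl
    omega
  have hC : ∀ n : (Subgroup.normalizer ((P : Subgroup A) : Set A)), n ∉ C →
      p ^ 2 * Nat.card (MulAction.fixedBy (P : Subgroup A) n) ≤ Nat.card (P : Subgroup A) := by
    intro n hn
    let F : Subgroup (P : Subgroup A) := (cent (n : A)).subgroupOf (P : Subgroup A)
    have hF : ∀ x : (P : Subgroup A), x ∈ MulAction.fixedBy (P : Subgroup A) n ↔ x ∈ F := by
      intro x
      rw [MulAction.mem_fixedBy, Subgroup.mem_subgroupOf, mem_cent_iff]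
      constructor
      · intro hx
        have h1 : (n : A) * x * (n : A)⁻¹ = x := congrArg Subtype.val hx
        exact mul_inv_eq_iff_eq_mul.1 h1
      · intro hx
        apply Subtype.ext
        show (n : A) * x * (n : A)⁻¹ = x
        rw [mul_inv_eq_iff_eq_mul]
        exact hx
    have hcard : Nat.card (MulAction.fixedBy (P : Subgroup A) n) = Nat.card F :=
      Nat.card_congr (Equiv.subtypeEquivRight hF)
    rw [hcard]
    have hg : ∀ u ∈ (P : Subgroup A), (n : A) * u * (n : A)⁻¹ ∈ (P : Subgroup A) :=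
      fun u hu => (Subgroup.mem_normalizer_iff.1 n.2 u).1 hu
    have hFne : F ≠ ⊤ := by
      intro hFt
      apply hn
      rw [Subgroup.mem_subgroupOf, Subgroup.mem_centralizer_iff]
      intro x hx
      have h1 : (⟨x, hx⟩ : (P : Subgroup A)) ∈ F := hFt ▸ Subgroup.mem_top _
      have h2 := Subgroup.mem_subgroupOf.1 h1
      rw [mem_cent_iff] at h2
      exact h2.symm
    have hnotp : ¬ F.index ∣ p := by
      intro hdp
      haveI := hCnormal
      apply hn
      have hpw' : n ^ w ∈ C := Subgroup.pow_index_mem C n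
      have hact : ∀ u ∈ (P : Subgroup A), (n : A) ^ w * u * ((n : A) ^ w)⁻¹ = u := by
        intro u hu
        rw [Subgroup.mem_subgroupOf, Subgroup.mem_centralizer_iff] at hpw'
        have := hpw' u hu
        have e : ((n ^ w : (Subgroup.normalizer ((P : Subgroup A) : Set A))) : A) = (n : A) ^ w := by simp
        rw [e] at this
        rw [← this]
        group
      have hall := fix_of_index_prime P.isPGroup' hab hg hdp hact hwp hwp1
      rw [Subgroup.mem_subgroupOf, Subgroup.mem_centralizer_iff]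
      intro x hx
      have := hall x hx
      exact (mul_inv_eq_iff_eq_mul.1 this).symm
    have hmul := Subgroup.card_mul_index F
    have hidx2 : p ^ 2 ∣ F.index := by
      have hd : F.index ∣ Nat.card (P : Subgroup A) := Subgroup.index_dvd_card _
      obtain ⟨k, hk⟩ := IsPGroup.exists_card_eq P.isPGroup'
      rw [hk] at hd
      obtain ⟨j, _, hj⟩ := (Nat.dvd_prime_pow hp.out).1 hd
      rw [hj] at hnotp ⊢
      apply pow_dvd_pow
      by_contra hlt
      apply hnotp
      apply (pow_dvd_pow p (show j ≤ 1 by omega)).trans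
      simp
    obtain ⟨i, hi⟩ := hidx2
    have hipos : 0 < i := by
      apply Nat.pos_of_ne_zero
      rintro rfl
      have : F.index ≠ 0 := Subgroup.index_ne_zero_of_finite
      exact this (by simpa using hi)
    rw [← hmul, hi]
    calc p ^ 2 * Nat.card F = Nat.card F * (p ^ 2 * 1) := by ring
      _ ≤ Nat.card F * (p ^ 2 * i) := by
        apply Nat.mul_le_mul_left
        exact Nat.mul_le_mul_left _ hipos
  have h1 := card_orbits_le₂ p hp.out.one_le C hC hidx
  have h2 := lt_orbits h P
  have h3 := orbits_le P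
  have h4 := Nat.mul_le_mul_left p h3
  omega

end Count

/-- Lifting a normal complement over a central subgroup. -/
theorem hasNPC_lift (D : Subgroup G) [hDn : D.Normal] (hD : ∀ d ∈ D, ∀ x : G, d * x = x * d)
    (h : Cfsg.HasNormalPComplement p (G ⧸ D)) : Cfsg.HasNormalPComplement p G := by
  obtain ⟨K₀, hn, h1, h2⟩ := hasNormalPComplement_iff.mp h
  set K := K₀.comap (QuotientGroup.mk' D) with hK
  haveI : K.Normal := Subgroup.Normal.comap hn _
  have hq : IsPGroup p (G ⧸ K) := by
    intro y
    obtain ⟨g, rfl⟩ := QuotientGroup.mk'_surjective K y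
    obtain ⟨k, hk⟩ := h2 (QuotientGroup.mk' K₀ (QuotientGroup.mk' D g))
    refine ⟨k, ?_⟩
    rw [← map_pow, ← map_pow] at hk
    have h3 : g ^ p ^ k ∈ K := by
      rw [hK, Subgroup.mem_comap]
      exact (QuotientGroup.eq_one_iff _).1 hk
    rw [← map_pow]
    exact (QuotientGroup.eq_one_iff _).2 h3
  have hKc : Cfsg.HasNormalPComplement p K := by
    let S : Sylow p K := default
    have hS : ∀ s ∈ (S : Subgroup K), ((s : K) : G) ∈ D := by
      intro s hs
      have h3 : QuotientGroup.mk' D (s : G) ∈ K₀ := s.2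
      obtain ⟨j, hj⟩ := (IsPGroup.iff_orderOf.1 S.isPGroup') ⟨s, hs⟩
      have hj' : (s : K) ^ p ^ j = 1 := by
        have := pow_orderOf_eq_one (⟨s, hs⟩ : (S : Subgroup K))
        rw [hj] at this
        exact congrArg Subtype.val this
      have h4 : QuotientGroup.mk' D (s : G) = 1 := by
        have h5 : (⟨_, h3⟩ : K₀) ^ p ^ j = 1 := by
          apply Subtype.ext
          have := congrArg (fun z : K => QuotientGroup.mk' D (z : G)) hj'
          simpa using this
        have h6 : orderOf (⟨_, h3⟩ : K₀) ∣ Nat.gcd (p ^ j) (Nat.card K₀) :=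
          Nat.dvd_gcd (orderOf_dvd_of_pow_eq_one h5) (orderOf_dvd_natCard _)
        have h7 : Nat.gcd (p ^ j) (Nat.card K₀) = 1 :=
          Nat.Coprime.pow_left j h1.symm
        rw [h7, Nat.dvd_one, orderOf_eq_one_iff] at h6
        exact congrArg Subtype.val h6
      exact (QuotientGroup.eq_one_iff _).1 h4
    have hc : Subgroup.normalizer ((S : Subgroup K) : Set K) ≤
        Subgroup.centralizer ((S : Subgroup K) : Set K) := by
      intro n _
      rw [Subgroup.mem_centralizer_iff]
      intro s hs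
      apply Subtype.ext
      exact hD _ (hS s hs) _
    exact ⟨S, (MonoidHom.transferSylow S hc).ker, inferInstance,
      MonoidHom.ker_transferSylow_isComplement' S hc⟩
  exact HasNormalPComplement_of_normal_of_isPGroup_quotient K hq hKc

/-- **Normal `p`-complement** for the smallest prime. -/
theorem hasNPC (h : Hsq G) (hmin : ∀ q : ℕ, q.Prime → q ∣ Nat.card G → p ≤ q) :
    Cfsg.HasNormalPComplement p G := by
  let P : Sylow p G := default
  set D : Subgroup G := (frattini (P : Subgroup G)).map (P : Subgroup G).subtype with hD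
  have hDc : ∀ d ∈ D, ∀ x : G, d * x = x * d := by
    rintro _ ⟨u, hu, rfl⟩ x
    exact frattini_central h P hu x
  haveI hDn : D.Normal := by
    constructor
    intro d hd g
    have e : g * d * g⁻¹ = d := by
      rw [← hDc d hd g]
      group
    rw [e]
    exact hd
  apply hasNPC_lift D hDc
  set q := QuotientGroup.mk' D with hq
  have hqs : Function.Surjective q := QuotientGroup.mk'_surjective D
  let P' : Sylow p (G ⧸ D) := P.mapSurjective hqs
  have hab : ∀ a ∈ (P' : Subgroup (G ⧸ D)), ∀ b ∈ (P' : Subgroup (G ⧸ D)), a * b = b * a := by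
    rintro _ ⟨u, hu, rfl⟩ _ ⟨v, hv, rfl⟩
    have h1 : (⁅(⟨u, hu⟩ : (P : Subgroup G)), (⟨v, hv⟩ : (P : Subgroup G))⁆ : (P : Subgroup G)) ∈
        frattini (P : Subgroup G) := by
      apply commutator_le_frattini P.isPGroup'
      rw [_root_.commutator_def]
      exact Subgroup.commutator_mem_commutator (Subgroup.mem_top _) (Subgroup.mem_top _)
    have h2 : u * v * u⁻¹ * v⁻¹ ∈ D := ⟨_, h1, rfl⟩
    have h3 : q (u * v * u⁻¹ * v⁻¹) = 1 := (QuotientGroup.eq_one_iff _).2 h2
    rw [map_mul, map_mul, map_mul, map_inv, map_inv, mul_inv_eq_one, mul_inv_eq_iff_eq_mul] at h3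
    exact h3
  have hmin' : ∀ r : ℕ, r.Prime → r ∣ Nat.card (G ⧸ D) → p ≤ r := by
    intro r hr hd
    exact hmin r hr (hd.trans (Subgroup.card_quotient_dvd_card D))
  have hNC := normalizer_le_centralizer' (h.quotient D) P' hab hmin'
  exact ⟨P', (MonoidHom.transferSylow P' hNC).ker, inferInstance,
    MonoidHom.ker_transferSylow_isComplement' P' hNC⟩

/-- **Solvability.** -/
theorem isSolvable_aux : ∀ (n : ℕ) (G : Type u) [Group G] [Finite G], Nat.card G = n → Hsq G →
    Group.IsSolvable G := by
  intro n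
  induction n using Nat.strong_induction_on with
  | _ n ih =>
    intro G _ _ hn h
    by_cases h1 : Nat.card G = 1
    · haveI : Subsingleton G := (Nat.card_eq_one_iff_unique.1 h1).1
      infer_instance
    set p := (Nat.card G).minFac with hp
    haveI hpf : Fact p.Prime := ⟨Nat.minFac_prime h1⟩
    have hmin : ∀ q : ℕ, q.Prime → q ∣ Nat.card G → p ≤ q := fun q hq hd =>
      Nat.minFac_le_of_dvd hq.two_le hd
    obtain ⟨N, hnN, hc, hq⟩ := hasNormalPComplement_iff.mp (hasNPC (p := p) h hmin)
    have hlt : Nat.card N < n := by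
      have hd : Nat.card N ∣ Nat.card G := Subgroup.card_subgroup_dvd_card N
      have hne : Nat.card N ≠ Nat.card G := by
        intro heq
        rw [heq] at hc
        exact hpf.out.one_lt.ne' (Nat.eq_one_of_dvd_coprimes hc (Nat.minFac_dvd _) dvd_rfl)
      rw [← hn]
      exact lt_of_le_of_ne (Nat.le_of_dvd Nat.card_pos hd) hne
    haveI : Group.IsSolvable N := ih _ hlt N rfl (h.subgroup N)
    haveI : Group.IsNilpotent (G ⧸ N) := hq.isNilpotent
    exact Group.isSolvable_of_ker_le_range N.subtype (QuotientGroup.mk' N) (by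
      rw [QuotientGroup.ker_mk']
      simp)

theorem isSolvable_of_hsq (h : Hsq G) : Group.IsSolvable G := isSolvable_aux _ G rfl h

end Cfsg.Agent.Lib.Nilpotent.Sqf
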