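import Mathlib
import Cfsg.Agent.Lib.Nilpotent.Sqf.Solvable
import Cfsg.Agent.Lib.Solvable.Supersolvable2
import Cfsg.Agent.Lib.Nilpotent.Parts

/-!
# Minimal normal subgroups of groups with squarefree class sizes have prime order
-/

set_option autoImplicit false

namespace Cfsg.Agent.Lib.Nilpotent.Sqf

open Subgroup Cfsg.Agent.Lib.ClassSize.Basic
open scoped commutatorElement

universe u

variable {G : Type u} [Group G] [Finite G]

/-- A minimal normal subgroup of a finite solvable group is an abelian `p`-group. -/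
theorem exists_min_normal (G : Type u) [Group G] [Finite G] [Group.IsSolvable G] [Nontrivial G] :
    ∃ (N : Subgroup G) (p : ℕ), N.Normal ∧ N ≠ ⊥ ∧ p.Prime ∧ IsPGroup p N ∧
      (∀ a ∈ N, ∀ b ∈ N, a * b = b * a) ∧
      ∀ M : Subgroup G, M.Normal → M ≠ ⊥ → M ≤ N → M = N := by
  classical
  let S : Set (Subgroup G) := {M | M.Normal ∧ M ≠ ⊥}
  have hS : S.Nonempty := ⟨⊤, inferInstance, top_ne_bot⟩
  obtain ⟨N, hN⟩ := (Set.toFinite S).exists_minimal hS
  obtain ⟨⟨hNn, hNb⟩, hNm⟩ := hN
  have hmin : ∀ M : Subgroup G, M.Normal → M ≠ ⊥ → M ≤ N → M = N :=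
    fun M h1 h2 h3 => le_antisymm h3 (hNm ⟨h1, h2⟩ h3)
  haveI := hNn
  have hcomm : ⁅N, N⁆ = ⊥ := by
    by_contra hne
    have h1 : ⁅N, N⁆ = N := hmin _ inferInstance hne (Subgroup.commutator_le_left N N)
    have h2 := Group.IsSolvable.commutator_lt_of_ne_bot hNb
    exact h2.ne h1
  have hab : ∀ a ∈ N, ∀ b ∈ N, a * b = b * a := by
    intro a ha b hb
    have h1 : ⁅a, b⁆ ∈ ⁅N, N⁆ := Subgroup.commutator_mem_commutator ha hb
    rw [hcomm, Subgroup.mem_bot] at h1
    exact commutatorElement_eq_one_iff_mul_comm.1 h1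
  have hcard1 : Nat.card N ≠ 1 := by
    intro h1
    exact hNb (Subgroup.eq_bot_of_card_eq N h1)
  set p := (Nat.card N).minFac with hp
  haveI hpf : Fact p.Prime := ⟨Nat.minFac_prime hcard1⟩
  let Q : Sylow p N := default
  have hQn : (Q : Subgroup N).Normal := by
    constructor
    intro x hx g
    have e : g * x * g⁻¹ = x := by
      apply Subtype.ext
      show (g : G) * x * (g : G)⁻¹ = x
      rw [hab _ g.2 _ x.2]
      group
    rw [e]
    exact hx
  have hQc : (Q : Subgroup N).Characteristic := Sylow.characteristic_of_normal Q hQn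
  have hmapn : ((Q : Subgroup N).map N.subtype).Normal :=
    Cfsg.Agent.Lib.Nilpotent.Fitting.map_subtype_normal_of_characteristic (Q : Subgroup N)
  have hne : (Q : Subgroup N).map N.subtype ≠ ⊥ := by
    intro h
    rw [Subgroup.map_eq_bot_iff_of_injective _ N.subtype_injective] at h
    exact Q.ne_bot_of_dvd_card (Nat.minFac_dvd _) h
  have heq := hmin _ hmapn hne (Subgroup.map_subtype_le _)
  have hNp : IsPGroup p N := by
    rw [← heq]
    exact Q.isPGroup'.map N.subtype
  exact ⟨N, p, hNn, hNb, hpf.out, hNp, hab, hmin⟩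

/-- A fixed point of a group acting as a `p`-group on a nontrivial normal `p`-subgroup. -/
theorem exists_fixed {p : ℕ} [hp : Fact p.Prime] {N R : Subgroup G} [hn : N.Normal]
    (hN : IsPGroup p N) (hne : N ≠ ⊥) (hR : ∀ r ∈ R, ∃ k : ℕ, r ^ p ^ k ∈ centralizer (N : Set G)) :
    ∃ u ∈ N, u ≠ 1 ∧ ∀ r ∈ R, r * u * r⁻¹ = u := by
  let φ : G →* MulAut N := MulAut.conjNormal
  have hφ : ∀ (g : G) (u : N), ((φ g u : N) : G) = g * u * g⁻¹ := fun g u => rfl
  let L : Subgroup (MulAut N) := R.map φ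
  have hL : IsPGroup p L := by
    rintro ⟨_, r, hr, rfl⟩
    obtain ⟨k, hk⟩ := hR r hr
    refine ⟨k, ?_⟩
    apply Subtype.ext
    show (φ r) ^ p ^ k = 1
    rw [← map_pow]
    ext u
    rw [hφ]
    rw [Subgroup.mem_centralizer_iff] at hk
    have := hk u u.2
    simp only [MulAut.one_apply]
    rw [← this]
    group
  have hcard : p ∣ Nat.card N := by
    obtain ⟨n, hn0, hn⟩ := (IsPGroup.nontrivial_iff_card hN).1
      ((Subgroup.nontrivial_iff_ne_bot N).2 hne)
    rw [hn]
    exact dvd_pow_self _ hn0.ne'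
  obtain ⟨b, hb, hb1⟩ := hL.exists_fixed_point_of_prime_dvd_card_of_fixed_point N hcard
    (a := (1 : N)) (by
      rintro ⟨f, _⟩
      exact map_one f)
  refine ⟨b, b.2, ?_, ?_⟩
  · intro h
    exact hb1 (Subtype.ext h.symm)
  · intro r hr
    have h1 := hb ⟨φ r, r, hr, rfl⟩
    have h2 : φ r b = b := h1
    have h3 := congrArg Subtype.val h2
    rwa [hφ] at h3

/-- `[a, z]` centralizing `O` means `a`, `z` commute as operators on `O`. -/
theorem comm_on_of_comm_cent {O : Subgroup G} [hO : O.Normal] {a z : G}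
    (h : a * z * a⁻¹ * z⁻¹ ∈ centralizer (O : Set G)) :
    ∀ w ∈ O, a * (z * w * z⁻¹) * a⁻¹ = z * (a * w * a⁻¹) * z⁻¹ := by
  intro w hw
  have h1 : z * (a * w * a⁻¹) * z⁻¹ ∈ O := hO.conj_mem _ (hO.conj_mem _ hw _) _
  rw [Subgroup.mem_centralizer_iff] at h
  have h2 := h _ h1
  set c := a * z * a⁻¹ * z⁻¹ with hc
  have e : a * z = c * (z * a) := by rw [hc]; group
  have e2 : a * (z * w * z⁻¹) * a⁻¹ = c * (z * (a * w * a⁻¹) * z⁻¹) * c⁻¹ := by
    calc a * (z * w * z⁻¹) * a⁻¹ = (a * z) * w * (a * z)⁻¹ := by group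
      _ = (c * (z * a)) * w * (c * (z * a))⁻¹ := by rw [e]
      _ = _ := by group
  rw [e2, ← h2]
  group

/-- **Minimal normal subgroups have prime order.** -/
theorem card_prime_of_minimal (h : Hsq G) [Group.IsSolvable G] {N : Subgroup G} {p : ℕ}
    (hn : N.Normal) (hne : N ≠ ⊥) (hp : p.Prime) (hNp : IsPGroup p N)
    (hab : ∀ a ∈ N, ∀ b ∈ N, a * b = b * a)
    (hmin : ∀ M : Subgroup G, M.Normal → M ≠ ⊥ → M ≤ N → M = N) : Nat.card N = p := by
  haveI := hn
  haveI hpf : Fact p.Prime := ⟨hp⟩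
  have H : AbHyp p N := ⟨hp, hn, hNp, hab, fun g => h.relIndex_dvd hp hNp g⟩
  have hcard : p ∣ Nat.card N := by
    obtain ⟨n, hn0, hn⟩ := (IsPGroup.nontrivial_iff_card hNp).1
      ((Subgroup.nontrivial_iff_ne_bot N).2 hne)
    rw [hn]
    exact dvd_pow_self _ hn0.ne'
  set C := centralizer (N : Set G) with hC
  by_cases hCtop : C = ⊤
  · -- central case
    obtain ⟨u, hu⟩ := exists_prime_orderOf_dvd_card' (G := N) p hcard
    have hcentral : ∀ g : G, g * (u : G) * g⁻¹ = u := by
      intro g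
      have : g ∈ C := hCtop ▸ Subgroup.mem_top g
      rw [hC, Subgroup.mem_centralizer_iff] at this
      rw [← this u u.2]
      group
    have hM : (zpowers (u : G)).Normal := by
      constructor
      rintro _ ⟨k, rfl⟩ g
      refine ⟨k, ?_⟩
      show (u : G) ^ k = g * (u : G) ^ k * g⁻¹
      rw [← MulAut.conj_apply, map_zpow, MulAut.conj_apply, hcentral]
    have hMne : zpowers (u : G) ≠ ⊥ := by
      intro h0
      rw [Subgroup.zpowers_eq_bot] at h0
      have h1 : u = 1 := Subtype.ext h0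
      rw [h1, orderOf_one] at hu
      exact hp.one_lt.ne hu
    have hMN : zpowers (u : G) ≤ N := Subgroup.zpowers_le.2 u.2
    rw [← hmin _ hM hMne hMN, Nat.card_zpowers, Subgroup.orderOf_coe, hu]
  · -- noncentral case
    haveI : Nontrivial (G ⧸ C) := QuotientGroup.nontrivial_iff.2 hCtop
    obtain ⟨R₀, r, hRn, hRne, hr, hRp, hRab, -⟩ := exists_min_normal (G ⧸ C)
    haveI hrf : Fact r.Prime := ⟨hr⟩
    haveI := hRn
    set π := QuotientGroup.mk' C with hπ
    have hπC : ∀ x, π x = 1 ↔ x ∈ C := fun x => QuotientGroup.eq_one_iff x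
    set R := R₀.comap π with hR
    haveI hRnorm : R.Normal := Subgroup.Normal.comap hRn π
    obtain ⟨y₀, hy₀R, hy₀C⟩ : ∃ y₀ ∈ R, y₀ ∉ C := by
      obtain ⟨x, hx1⟩ := (Subgroup.ne_bot_iff_exists_ne_one).1 hRne
      obtain ⟨y₀, hy₀⟩ := QuotientGroup.mk'_surjective C (x : G ⧸ C)
      refine ⟨y₀, ?_, ?_⟩
      · rw [hR, Subgroup.mem_comap, hπ, hy₀]
        exact x.2
      · intro hin
        apply hx1
        apply Subtype.ext
        rw [← hy₀]
        exact (hπC y₀).2 hin
    set T := N ⊓ centralizer (R : Set G) with hT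
    haveI hTn : T.Normal := inferInstance
    have hTN : T ≠ N := by
      intro heq
      apply hy₀C
      rw [hC, Subgroup.mem_centralizer_iff]
      intro u hu
      have : u ∈ T := heq ▸ hu
      have h2 := (Subgroup.mem_inf.1 this).2
      rw [Subgroup.mem_centralizer_iff] at h2
      exact (h2 y₀ hy₀R).symm
    have hTbot : T = ⊥ := by
      by_contra hbot
      exact hTN (hmin T hTn hbot inf_le_left)
    have hrp : r ≠ p := by
      rintro rfl
      have hR' : ∀ z ∈ R, ∃ k : ℕ, z ^ r ^ k ∈ C := by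
        intro z hz
        obtain ⟨k, hk⟩ := hRp ⟨π z, hz⟩
        refine ⟨k, ?_⟩
        rw [← hπC, map_pow]
        exact congrArg Subtype.val hk
      obtain ⟨u, huN, hu1, hufix⟩ := exists_fixed (R := R) hNp hne hR'
      have : u ∈ T := by
        refine Subgroup.mem_inf.2 ⟨huN, ?_⟩
        rw [Subgroup.mem_centralizer_iff]
        intro z hz
        have := hufix z hz
        exact (mul_inv_eq_iff_eq_mul.1 this)
      rw [hTbot, Subgroup.mem_bot] at this
      exact hu1 this
    obtain ⟨a, b, hab', haz, hbz, ⟨k, hak⟩, hbc⟩ :=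
      Cfsg.Agent.Lib.Nilpotent.Parts.exists_parts y₀ r
    have hzR : zpowers y₀ ≤ R := Subgroup.zpowers_le.2 hy₀R
    have hbC : b ∈ C := by
      obtain ⟨j, hj⟩ := hRp ⟨π b, hzR hbz⟩
      have hj' : (π b) ^ r ^ j = 1 := congrArg Subtype.val hj
      have h1 : orderOf (π b) ∣ r ^ j := orderOf_dvd_of_pow_eq_one hj'
      have h2 : orderOf (π b) ∣ orderOf b := orderOf_map_dvd π b
      have h3 : Nat.Coprime (orderOf b) (r ^ j) := Nat.Coprime.pow_right j hbc
      have h4 : orderOf (π b) = 1 := Nat.eq_one_of_dvd_coprimes h3 h2 h1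
      rw [← hπC, ← orderOf_eq_one_iff]
      exact h4
    have haC : a ∉ C := by
      intro haC
      apply hy₀C
      rw [hab']
      exact C.mul_mem haC hbC
    have haR : a ∈ R := hzR haz
    have hacop : (orderOf a).Coprime p := by
      have h1 : orderOf a ∣ r ^ k := orderOf_dvd_of_pow_eq_one hak
      have h2 : Nat.Coprime (r ^ k) p :=
        Nat.Coprime.pow_left k ((Nat.coprime_primes hr hp).2 hrp)
      exact Nat.Coprime.coprime_dvd_left h1 h2
    have hmv : ∃ u ∈ N, a * u * a⁻¹ ≠ u := by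
      by_contra hcon
      push Not at hcon
      apply haC
      rw [hC, Subgroup.mem_centralizer_iff]
      intro u hu
      exact (mul_inv_eq_iff_eq_mul.1 (hcon u hu)).symm
    have hyz : ∀ z ∈ R, ∀ w ∈ N, a * (z * w * z⁻¹) * a⁻¹ = z * (a * w * a⁻¹) * z⁻¹ := by
      intro z hz
      apply comm_on_of_comm_cent
      rw [← hπC, map_mul, map_mul, map_mul, map_inv, map_inv]
      have := hRab _ haR _ hz
      rw [this]
      group
    have hfixed : ∀ b' ∈ N, a * b' * a⁻¹ = b' → b' = 1 := by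
      intro b' hb' hfix
      have : b' ∈ T := by
        refine Subgroup.mem_inf.2 ⟨hb', ?_⟩
        rw [Subgroup.mem_centralizer_iff]
        intro z hz
        have := H.cent_le hacop (hyz z hz) hmv hb' hfix
        exact (mul_inv_eq_iff_eq_mul.1 this)
      rwa [hTbot, Subgroup.mem_bot] at this
    have hbotA : (cent a).subgroupOf N = ⊥ := by
      rw [eq_bot_iff]
      rintro ⟨u, hu⟩ hmem
      rw [Subgroup.mem_subgroupOf, mem_cent_iff] at hmem
      rw [Subgroup.mem_bot]
      apply Subtype.ext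
      apply hfixed u hu
      show a * u * a⁻¹ = u
      have : a * u = u * a := hmem
      rw [this]
      group
    have hrel : (cent a).relIndex N = Nat.card N := by
      rw [Subgroup.relIndex, hbotA, Subgroup.index_bot]
    have hdvd := h.relIndex_dvd hp hNp a
    rw [hrel] at hdvd
    exact Nat.dvd_antisymm hdvd hcard

/-- A nontrivial group with squarefree class sizes has a normal subgroup of prime order. -/
theorem exists_normal_prime_of_hsq (h : Hsq G) [Nontrivial G] :
    ∃ N : Subgroup G, N.Normal ∧ (Nat.card N).Prime := by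
  haveI := isSolvable_of_hsq h
  obtain ⟨N, p, h1, h2, h3, h4, h5, h6⟩ := exists_min_normal G
  exact ⟨N, h1, by rw [card_prime_of_minimal h h1 h2 h3 h4 h5 h6]; exact h3⟩

/-- **Supersolvability.** -/
theorem isSupersolvable_aux : ∀ (n : ℕ) (G : Type u) [Group G] [Finite G], Nat.card G = n → Hsq G →
    Cfsg.IsSupersolvable G := by
  intro n
  induction n using Nat.strong_induction_on with
  | _ n ih =>
    intro G _ _ hn h
    by_cases h1 : Nat.card G = 1
    · rw [Cfsg.Agent.Lib.Solvable.Supersolvable.isSupersolvable_iff]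
      haveI : Subsingleton G := (Nat.card_eq_one_iff_unique.1 h1).1
      have : (⊤ : Subgroup G) = ⊥ := Subsingleton.elim _ _
      rw [this]
      exact Cfsg.Agent.Lib.Solvable.Supersolvable.Reach.bot
    haveI : Nontrivial G := by
      by_contra hnt
      rw [not_nontrivial_iff_subsingleton] at hnt
      exact h1 (Nat.card_of_subsingleton (1 : G))
    obtain ⟨N, hN, hp⟩ := exists_normal_prime_of_hsq h
    haveI := hN
    have hb := Cfsg.Agent.Lib.Solvable.Supersolvable2.ne_bot_of_card_prime hp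
    have hlt := Cfsg.Agent.Lib.Solvable.Supersolvable2.card_quotient_lt N hb
    exact Cfsg.Agent.Lib.Solvable.Supersolvable2.isSupersolvable_of_normal_prime N hp
      (ih _ (hn ▸ hlt) _ rfl (h.quotient N))

theorem isSupersolvable_of_hsq (h : Hsq G) : Cfsg.IsSupersolvable G := isSupersolvable_aux _ G rfl h

end Cfsg.Agent.Lib.Nilpotent.Sqf
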