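import Mathlib
import Cfsg.Agent.Lib.Nilpotent.Sqf.Minimal
import Cfsg.Agent.Lib.Nilpotent.Elements

/-!
# The derived subgroup of a group with squarefree class sizes is cyclic of squarefree order
-/

set_option autoImplicit false

namespace Cfsg.Agent.Lib.Nilpotent.Sqf

open Subgroup Cfsg.Agent.Lib.ClassSize.Basic Cfsg.Agent.Lib.Transfer.Basic
open scoped commutatorElement

universe u

variable {G : Type u} [Group G] [Finite G]

/-- If the derived subgroup is a `p`-group then it has order dividing `p`. -/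
theorem card_commutator_dvd_of_isPGroup {p : ℕ} [hp : Fact p.Prime] (h : Hsq G)
    (hG' : IsPGroup p (commutator G)) : Nat.card (commutator G) ∣ p := by
  let P : Sylow p G := default
  have hle : commutator G ≤ (P : Subgroup G) := hG'.le_sylow_of_normal P
  have hPn : (P : Subgroup G).Normal := by
    constructor
    intro x hx g
    have h1 : g * x * g⁻¹ * x⁻¹ ∈ (P : Subgroup G) := by
      apply hle
      rw [_root_.commutator_def]
      exact Subgroup.commutator_mem_commutator (Subgroup.mem_top g) (Subgroup.mem_top x)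
    have := (P : Subgroup G).mul_mem h1 hx
    simpa using this
  haveI := hPn
  obtain ⟨Q, hQ⟩ := Subgroup.exists_right_complement'_of_coprime (N := (P : Subgroup G))
    P.card_coprime_index
  have hQab : ∀ a ∈ Q, ∀ b ∈ Q, a * b = b * a := by
    intro a ha b hb
    have h1 : a * b * a⁻¹ * b⁻¹ ∈ (P : Subgroup G) := by
      apply hle
      rw [_root_.commutator_def]
      exact Subgroup.commutator_mem_commutator (Subgroup.mem_top a) (Subgroup.mem_top b)
    have h2 : a * b * a⁻¹ * b⁻¹ ∈ Q := Q.mul_mem (Q.mul_mem (Q.mul_mem ha hb) (Q.inv_mem ha)) (Q.inv_mem hb)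
    have h3 : a * b * a⁻¹ * b⁻¹ = 1 := Subgroup.disjoint_def.1 hQ.disjoint h1 h2
    exact commutatorElement_eq_one_iff_mul_comm.1 h3
  have hQcard : Nat.card Q = (P : Subgroup G).index := hQ.symm.index_eq_card.symm
  have hQord : ∀ y ∈ Q, (orderOf y).Coprime p := by
    intro y hy
    have h1 : orderOf y ∣ Nat.card Q := by
      have := orderOf_dvd_natCard (⟨y, hy⟩ : Q)
      simpa using this
    rw [hQcard] at h1
    exact Nat.Coprime.coprime_dvd_left h1
      (((Nat.Prime.coprime_iff_not_dvd hp.out).2 P.not_dvd_index).symm)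
  have hsplit : ∀ g : G, ∃ u ∈ (P : Subgroup G), ∃ y ∈ Q, u * y = g := by
    intro g
    obtain ⟨⟨⟨u, hu⟩, ⟨y, hy⟩⟩, huy⟩ := hQ.2 g
    exact ⟨u, hu, y, hy, huy⟩
  have hidx : ∀ g : G, (cent g).relIndex (P : Subgroup G) ∣ p :=
    fun g => h.relIndex_dvd hp.out P.isPGroup' g
  by_cases hmv : ∃ y ∈ Q, ∃ u ∈ (P : Subgroup G), y * u * y⁻¹ ≠ u
  · obtain ⟨y₀, hy₀, u₀, hu₀, hne⟩ := hmv
    have hPab := abelian_of_moved hp.out P.isPGroup' hPn hidx (hQord y₀ hy₀) ⟨u₀, hu₀, hne⟩
    have H : AbHyp p (P : Subgroup G) := ⟨hp.out, hPn, P.isPGroup', hPab, hidx⟩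
    have hyz : ∀ y ∈ Q, ∀ z ∈ Q, ∀ w ∈ (P : Subgroup G),
        y * (z * w * z⁻¹) * y⁻¹ = z * (y * w * y⁻¹) * z⁻¹ := by
      intro y hy z hz w _
      have e : y * z = z * y := hQab y hy z hz
      calc y * (z * w * z⁻¹) * y⁻¹ = (y * z) * w * (y * z)⁻¹ := by group
        _ = (z * y) * w * (z * y)⁻¹ := by rw [e]
        _ = _ := by group
    have hne' : y₀ * u₀ * y₀⁻¹ * u₀⁻¹ ≠ 1 := fun h1 => hne (mul_inv_eq_one.1 h1)
    set α := y₀ * u₀ * y₀⁻¹ * u₀⁻¹ with hα
    have hαO : α ∈ (P : Subgroup G) := H.delta_mem y₀ hu₀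
    have hline1 : ∀ y ∈ Q, ∀ u ∈ (P : Subgroup G), y * u * y⁻¹ * u⁻¹ ∈ zpowers α := by
      intro y hy u hu
      by_cases hyu : y * u * y⁻¹ * u⁻¹ = 1
      · rw [hyu]
        exact one_mem _
      · exact H.same_line (hQord y₀ hy₀) (hQord y hy) (hyz y₀ hy₀ y hy) hu₀ hu hne' hyu
    have hgα : ∀ g : G, g * α * g⁻¹ ∈ zpowers α := by
      intro g
      obtain ⟨v, hv, z, hz, rfl⟩ := hsplit g
      have h1 : z * α * z⁻¹ ∈ zpowers α := H.conj_delta_mem hu₀ (hyz y₀ hy₀ z hz) hne'
      have h2 : z * α * z⁻¹ ∈ (P : Subgroup G) := H.conj_mem z hαO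
      have e : v * z * α * (v * z)⁻¹ = z * α * z⁻¹ := by
        calc v * z * α * (v * z)⁻¹ = v * (z * α * z⁻¹) * v⁻¹ := by group
          _ = (z * α * z⁻¹) * v * v⁻¹ := by rw [hPab v hv _ h2]
          _ = _ := by group
      rw [e]
      exact h1
    have hInormal : (zpowers α).Normal := by
      constructor
      rintro _ ⟨k, rfl⟩ g
      have e : g * (fun x => α ^ x) k * g⁻¹ = (g * α * g⁻¹) ^ k := by
        show g * α ^ k * g⁻¹ = _
        rw [← MulAut.conj_apply, map_zpow, MulAut.conj_apply]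
      rw [e]
      exact zpow_mem (hgα g) k
    haveI := hInormal
    set π := QuotientGroup.mk' (zpowers α) with hπ
    have hπ1 : ∀ x, π x = 1 ↔ x ∈ zpowers α := fun x => QuotientGroup.eq_one_iff x
    have c1 : ∀ u ∈ (P : Subgroup G), ∀ v ∈ (P : Subgroup G), Commute (π u) (π v) := by
      intro u hu v hv
      show π u * π v = π v * π u
      rw [← map_mul, ← map_mul, hPab u hu v hv]
    have c2 : ∀ y ∈ Q, ∀ z ∈ Q, Commute (π y) (π z) := by
      intro u hu v hv
      show π u * π v = π v * π u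
      rw [← map_mul, ← map_mul, hQab u hu v hv]
    have c3 : ∀ y ∈ Q, ∀ v ∈ (P : Subgroup G), Commute (π y) (π v) := by
      intro y hy v hv
      have h1 := (hπ1 _).2 (hline1 y hy v hv)
      rw [map_mul, map_mul, map_mul, map_inv, map_inv, mul_inv_eq_one, mul_inv_eq_iff_eq_mul] at h1
      exact h1
    have hcomm : commutator G ≤ zpowers α := by
      rw [_root_.commutator_def, Subgroup.commutator_le]
      intro g₁ _ g₂ _
      rw [← hπ1, map_commutatorElement, commutatorElement_eq_one_iff_commute]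
      obtain ⟨u, hu, y, hy, rfl⟩ := hsplit g₁
      obtain ⟨v, hv, z, hz, rfl⟩ := hsplit g₂
      rw [map_mul, map_mul]
      exact Commute.mul_left ((c1 u hu v hv).mul_right (c3 z hz u hu).symm)
        ((c3 y hy v hv).mul_right (c2 y hy z hz))
    have hcard : Nat.card (zpowers α) = p := by
      rw [Nat.card_zpowers]
      exact orderOf_eq_prime (H.hl y₀ hu₀ hu₀ hne').2 hne'
    rw [← hcard]
    exact Subgroup.card_dvd_of_le hcomm
  · push Not at hmv
    set E : Subgroup G := (commutator (P : Subgroup G)).map (P : Subgroup G).subtype with hE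
    have hle2 : commutator G ≤ E := by
      rw [_root_.commutator_def, Subgroup.commutator_le]
      intro g₁ _ g₂ _
      obtain ⟨u, hu, y, hy, rfl⟩ := hsplit g₁
      obtain ⟨v, hv, z, hz, rfl⟩ := hsplit g₂
      have hyv : y * v = v * y := by
        have := hmv y hy v hv
        exact mul_inv_eq_iff_eq_mul.1 this
      have hzu : z * u⁻¹ = u⁻¹ * z := by
        have := hmv z hz u⁻¹ ((P : Subgroup G).inv_mem hu)
        exact mul_inv_eq_iff_eq_mul.1 this
      have hyz : y * z = z * y := hQab y hy z hz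
      have e : ⁅u * y, v * z⁆ = ⁅u, v⁆ := by
        simp only [commutatorElement_def]
        calc u * y * (v * z) * (u * y)⁻¹ * (v * z)⁻¹
            = u * (y * v) * z * y⁻¹ * u⁻¹ * z⁻¹ * v⁻¹ := by group
          _ = u * v * (y * z) * y⁻¹ * u⁻¹ * z⁻¹ * v⁻¹ := by rw [hyv]; group
          _ = u * v * z * u⁻¹ * z⁻¹ * v⁻¹ := by rw [hyz]; group
          _ = u * v * (z * u⁻¹) * z⁻¹ * v⁻¹ := by group
          _ = u * v * u⁻¹ * v⁻¹ := by rw [hzu]; group
      rw [e]
      refine ⟨⁅(⟨u, hu⟩ : (P : Subgroup G)), (⟨v, hv⟩ : (P : Subgroup G))⁆, ?_, rfl⟩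
      rw [_root_.commutator_def]
      exact Subgroup.commutator_mem_commutator (Subgroup.mem_top _) (Subgroup.mem_top _)
    have hcardE : Nat.card E = Nat.card (commutator (P : Subgroup G)) :=
      Nat.card_congr ((commutator (P : Subgroup G)).equivMapOfInjective _
        (P : Subgroup G).subtype_injective).toEquiv.symm
    have hK : Nat.card (commutator (P : Subgroup G)) ∣ p := by
      apply card_commutator_dvd P.isPGroup'
      intro x
      rw [cent_subgroupOf]
      exact hidx x
    exact (Subgroup.card_dvd_of_le hle2).trans (hcardE ▸ hK)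

/-- A normal nilpotent subgroup has a normal Hall `p'`-subgroup, normal in the whole group. -/
theorem exists_hall_complement {X : Subgroup G} [hXn : X.Normal] (hX : Group.IsNilpotent X)
    (p : ℕ) [hp : Fact p.Prime] :
    ∃ W : Subgroup G, W.Normal ∧ W ≤ X ∧ (Nat.card W).Coprime p ∧
      ∀ u ∈ X, ∃ k : ℕ, u ^ p ^ k ∈ W := by
  let T : Sylow p X := default
  haveI hTn : (T : Subgroup X).Normal := inferInstance
  obtain ⟨W₀, hW₀⟩ := Subgroup.exists_right_complement'_of_coprime (N := (T : Subgroup X))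
    T.card_coprime_index
  have hW₀card : Nat.card W₀ = (T : Subgroup X).index := hW₀.symm.index_eq_card.symm
  have hW₀cop : (Nat.card W₀).Coprime p := by
    rw [hW₀card]
    exact ((Nat.Prime.coprime_iff_not_dvd hp.out).2 T.not_dvd_index).symm
  have hord : ∀ w ∈ W₀, (orderOf w).Coprime p := by
    intro w hw
    have h1 : orderOf w ∣ Nat.card W₀ := by
      have := orderOf_dvd_natCard (⟨w, hw⟩ : W₀)
      simpa using this
    exact Nat.Coprime.coprime_dvd_left h1 hW₀cop
  have hcomm : ∀ t ∈ (T : Subgroup X), ∀ w ∈ W₀, Commute t w := by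
    intro t ht w hw
    apply Cfsg.Agent.Lib.Nilpotent.Elements.commute_of_coprime_orderOf
    obtain ⟨k, hk⟩ := (IsPGroup.iff_orderOf.1 T.isPGroup') ⟨t, ht⟩
    have : orderOf t = p ^ k := by
      rw [← hk]
      exact (Subgroup.orderOf_mk t ht).symm
    rw [this]
    exact Nat.Coprime.pow_left k (hord w hw).symm
  have hsplit : ∀ g : X, ∃ t ∈ (T : Subgroup X), ∃ w ∈ W₀, t * w = g := by
    intro g
    obtain ⟨⟨⟨u, hu⟩, ⟨y, hy⟩⟩, huy⟩ := hW₀.2 g
    exact ⟨u, hu, y, hy, huy⟩
  have hW₀n : W₀.Normal := by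
    constructor
    intro x hx g
    obtain ⟨t, ht, w, hw, rfl⟩ := hsplit g
    have e : t * w * x * (t * w)⁻¹ = w * x * w⁻¹ := by
      have h1 : t * (w * x * w⁻¹) = (w * x * w⁻¹) * t :=
        hcomm t ht _ (W₀.mul_mem (W₀.mul_mem hw hx) (W₀.inv_mem hw))
      calc t * w * x * (t * w)⁻¹ = t * (w * x * w⁻¹) * t⁻¹ := by group
        _ = _ := by rw [h1]; group
    rw [e]
    exact W₀.mul_mem (W₀.mul_mem hw hx) (W₀.inv_mem hw)
  haveI := hW₀n
  have hq : IsPGroup p (X ⧸ W₀) := by
    have e : Nat.card (X ⧸ W₀) = Nat.card (T : Subgroup X) := by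
      rw [← Subgroup.index_eq_card]
      exact hW₀.index_eq_card
    obtain ⟨n, hn⟩ := IsPGroup.iff_card.1 T.isPGroup'
    exact IsPGroup.of_card (n := n) (e.trans hn)
  have hmem := mem_iff_coprime_of_normal W₀ hW₀cop hq
  refine ⟨W₀.map X.subtype, ?_, Subgroup.map_subtype_le _, ?_, ?_⟩
  · constructor
    rintro _ ⟨y, hy, rfl⟩ g
    have hconj : g * (y : G) * g⁻¹ ∈ X := hXn.conj_mem _ y.2 g
    refine ⟨⟨_, hconj⟩, ?_, rfl⟩
    rw [SetLike.mem_coe, hmem]
    have h3 := (hmem y).mp hy
    have : orderOf (⟨_, hconj⟩ : X) = orderOf y := by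
      rw [← Subgroup.orderOf_coe, ← Subgroup.orderOf_coe]
      exact orderOf_conj_eq g (y : G)
    rw [this]
    exact h3
  · have : Nat.card (W₀.map X.subtype) = Nat.card W₀ :=
      Nat.card_congr (W₀.equivMapOfInjective X.subtype X.subtype_injective).toEquiv.symm
    rw [this]
    exact hW₀cop
  · intro u hu
    obtain ⟨k, hk⟩ := hq (QuotientGroup.mk' W₀ ⟨u, hu⟩)
    refine ⟨k, ?_⟩
    rw [← map_pow] at hk
    have h1 : (⟨u, hu⟩ : X) ^ p ^ k ∈ W₀ := (QuotientGroup.eq_one_iff _).1 hk
    exact ⟨_, h1, by simp⟩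

/-- **The derived subgroup has squarefree order.** -/
theorem squarefree_card_commutator (h : Hsq G) : Squarefree (Nat.card (commutator G)) := by
  rw [Nat.squarefree_iff_prime_squarefree]
  intro p hp hd
  haveI hpf : Fact p.Prime := ⟨hp⟩
  have hnil := Cfsg.Agent.Lib.Solvable.Supersolvable2.isNilpotent_commutator
    (isSupersolvable_of_hsq h)
  obtain ⟨W, hWn, hWX, hWc, hWk⟩ := exists_hall_complement hnil p
  haveI := hWn
  set π := QuotientGroup.mk' W with hπ
  have hs : Function.Surjective π := QuotientGroup.mk'_surjective W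
  have e : (commutator G).map π = commutator (G ⧸ W) := by
    rw [_root_.commutator_def, _root_.commutator_def, Subgroup.map_commutator,
      ← MonoidHom.range_eq_map, MonoidHom.range_eq_top.2 hs]
  have hpg : IsPGroup p (commutator (G ⧸ W)) := by
    rintro ⟨x, hx⟩
    rw [← e] at hx
    obtain ⟨u, hu, rfl⟩ := hx
    obtain ⟨k, hk⟩ := hWk u hu
    refine ⟨k, ?_⟩
    apply Subtype.ext
    show (π u) ^ p ^ k = 1
    rw [← map_pow]
    exact (QuotientGroup.eq_one_iff _).2 hk
  have hD := card_commutator_dvd_of_isPGroup (h.quotient W) hpg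
  have hcard : Nat.card W * Nat.card ((commutator G).map π) = Nat.card (commutator G) := by
    have h1 : W.relIndex (commutator G) = Nat.card ((commutator G).map π) := by
      have := Subgroup.relIndex_ker π (K := commutator G)
      rwa [QuotientGroup.ker_mk'] at this
    have h2 := Subgroup.card_mul_index (W.subgroupOf (commutator G))
    have h3 : Nat.card (W.subgroupOf (commutator G)) = Nat.card W :=
      Nat.card_congr (Subgroup.subgroupOfEquivOfLe hWX).toEquiv
    rw [h3] at h2
    rw [← h1]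
    exact h2
  rw [e] at hcard
  rw [← hcard] at hd
  have hcop : Nat.Coprime (p * p) (Nat.card W) :=
    Nat.Coprime.mul_left hWc.symm hWc.symm
  have h4 := hcop.dvd_of_dvd_mul_left hd
  have h5 := Nat.le_of_dvd hp.pos (h4.trans hD)
  have := hp.two_le
  nlinarith

/-- **The derived subgroup is cyclic.** -/
theorem isCyclic_commutator_of_hsq (h : Hsq G) : IsCyclic (commutator G) := by
  haveI : Group.IsNilpotent (commutator G) :=
    Cfsg.Agent.Lib.Solvable.Supersolvable2.isNilpotent_commutator (isSupersolvable_of_hsq h)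
  haveI : IsZGroup (commutator G) := IsZGroup.of_squarefree (squarefree_card_commutator h)
  infer_instance

end Cfsg.Agent.Lib.Nilpotent.Sqf
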