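import Mathlib
import Cfsg.Agent.Lib.Nilpotent.Sqf.Derived

/-!
# The Fitting subgroup of a group with squarefree class sizes

`G / F(G)` is cyclic of squarefree order and `F(G)` has class at most `2`.
-/

set_option autoImplicit false

namespace Cfsg.Agent.Lib.Nilpotent.Sqf

open Subgroup Cfsg.Agent.Lib.ClassSize.Basic Cfsg.Agent.Lib.Transfer.Basic
open Cfsg.Agent.Lib.Nilpotent.Fitting
open scoped commutatorElement

universe u

variable {G : Type u} [Group G] [Finite G]

theorem commutator_le_fitting (h : Hsq G) : commutator G ≤ Cfsg.fittingSubgroup G :=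
  le_fittingSubgroup (Cfsg.Agent.Lib.Solvable.Supersolvable2.isNilpotent_commutator
    (isSupersolvable_of_hsq h))

/-- Elements of the Fitting subgroup of coprime orders commute. -/
theorem fitting_commute {a b : G} (ha : a ∈ Cfsg.fittingSubgroup G)
    (hb : b ∈ Cfsg.fittingSubgroup G) (hc : (orderOf a).Coprime (orderOf b)) : a * b = b * a := by
  haveI : Group.IsNilpotent (Cfsg.fittingSubgroup G) := isNilpotent_fittingSubgroup
  have h1 : Commute (⟨a, ha⟩ : Cfsg.fittingSubgroup G) ⟨b, hb⟩ := by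
    apply Cfsg.Agent.Lib.Nilpotent.Elements.commute_of_coprime_orderOf
    rwa [Subgroup.orderOf_mk, Subgroup.orderOf_mk]
  exact congrArg Subtype.val h1.eq

/-- A `q`-element of the Fitting subgroup lies in `O_q`. -/
theorem mem_pCore_of_mem_fitting {q : ℕ} [Fact q.Prime] {y : G} (hy : y ∈ Cfsg.fittingSubgroup G)
    {k : ℕ} (hk : orderOf y = q ^ k) : y ∈ Cfsg.pCore q G :=
  mem_pCore_of_mem_nilpotent_normal isNilpotent_fittingSubgroup hy hk

theorem orderOf_pCore {q : ℕ} [hq : Fact q.Prime] {y : G} (hy : y ∈ Cfsg.pCore q G) :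
    ∃ k : ℕ, orderOf y = q ^ k := by
  obtain ⟨k, hk⟩ := (IsPGroup.iff_orderOf.1 (isPGroup_pCore (G := G) q)) ⟨y, hy⟩
  exact ⟨k, by rw [← hk, Subgroup.orderOf_mk]⟩

/-- The Fitting subgroup centralizes an abelian `O_q`. -/
theorem fitting_cent {q : ℕ} [hq : Fact q.Prime]
    (hab : ∀ a ∈ Cfsg.pCore q G, ∀ b ∈ Cfsg.pCore q G, a * b = b * a) {f o : G}
    (hf : f ∈ Cfsg.fittingSubgroup G) (ho : o ∈ Cfsg.pCore q G) : f * o = o * f := by
  by_contra hcon
  have hf' : f ∉ cent o := by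
    rw [mem_cent_iff]
    exact fun h => hcon h.symm
  obtain ⟨k, hk, s, e, hs, hord⟩ := exists_primary_pow_notMem hf'
  apply hk
  rw [mem_cent_iff]
  have hy : f ^ k ∈ Cfsg.fittingSubgroup G := Subgroup.pow_mem _ hf k
  by_cases hsq : s = q
  · subst hsq
    exact hab _ ho _ (mem_pCore_of_mem_fitting hy hord)
  · obtain ⟨j, hj⟩ := orderOf_pCore ho
    apply fitting_commute (pCore_le_fittingSubgroup q ho) hy
    rw [hj, hord]
    exact Nat.Coprime.pow _ _ ((Nat.coprime_primes hq.out hs).2 (Ne.symm hsq))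

/-- Choice of an element detecting the action of `q'`-elements on `O_q`. -/
theorem exists_gen_elt (h : Hsq G) {q : ℕ} [hq : Fact q.Prime] :
    ∃ a ∈ Cfsg.pCore q G, ∀ y : G, (orderOf y).Coprime q → y * a = a * y →
      ∀ o ∈ Cfsg.pCore q G, y * o = o * y := by
  by_cases hall : ∀ y : G, (orderOf y).Coprime q → ∀ o ∈ Cfsg.pCore q G, y * o = o * y
  · exact ⟨1, one_mem _, fun y hy _ => hall y hy⟩
  push Not at hall
  obtain ⟨y₀, hy₀, o₀, ho₀, hne⟩ := hall
  have hp := isPGroup_pCore (G := G) q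
  have hidx : ∀ g : G, (cent g).relIndex (Cfsg.pCore q G) ∣ q :=
    fun g => h.relIndex_dvd hq.out hp g
  have hmv₀ : ∃ u ∈ Cfsg.pCore q G, y₀ * u * y₀⁻¹ ≠ u := by
    refine ⟨o₀, ho₀, fun h1 => hne (mul_inv_eq_iff_eq_mul.1 h1)⟩
  have hab := abelian_of_moved hq.out hp (pCore_normal q) hidx hy₀ hmv₀
  have H : AbHyp q (Cfsg.pCore q G) := ⟨hq.out, pCore_normal q, hp, hab, hidx⟩
  refine ⟨o₀, ho₀, ?_⟩
  intro y hy hya
  by_contra hcon
  push Not at hcon
  obtain ⟨o, ho, hmv⟩ := hcon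
  apply hne
  have hyz : ∀ w ∈ Cfsg.pCore q G, y * (y₀ * w * y₀⁻¹) * y⁻¹ = y₀ * (y * w * y⁻¹) * y₀⁻¹ := by
    apply comm_on_of_comm_cent
    rw [Subgroup.mem_centralizer_iff]
    intro u hu
    have h1 : y * y₀ * y⁻¹ * y₀⁻¹ ∈ Cfsg.fittingSubgroup G := by
      apply commutator_le_fitting h
      rw [_root_.commutator_def]
      exact Subgroup.commutator_mem_commutator (Subgroup.mem_top _) (Subgroup.mem_top _)
    exact (fitting_cent hab h1 hu).symm
  have hfix : y * o₀ * y⁻¹ = o₀ := by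
    rw [hya]
    group
  have := H.cent_le hy hyz ⟨o, ho, fun h1 => hmv (mul_inv_eq_iff_eq_mul.1 h1)⟩ ho₀ hfix
  exact mul_inv_eq_iff_eq_mul.1 this

/-- An `r`-element centralizing all `O_s`, `s ≠ r`, lies in `O_r`. -/
theorem mem_pCore_of_centralizes (h : Hsq G) {r : ℕ} [hr : Fact r.Prime] {y : G}
    (hy : ∃ k : ℕ, orderOf y = r ^ k)
    (hc : ∀ s : ℕ, s.Prime → s ≠ r → ∀ o ∈ Cfsg.pCore s G, y * o = o * y) :
    y ∈ Cfsg.pCore r G := by
  obtain ⟨k, hk⟩ := hy
  have hyp : IsPGroup r (zpowers y) := IsPGroup.of_card (n := k) (by rw [Nat.card_zpowers, hk])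
  have hOp := isPGroup_pCore (G := G) r
  haveI hOn : (Cfsg.pCore r G).Normal := pCore_normal r
  set W := zpowers y ⊔ Cfsg.pCore r G with hW
  have hWp : IsPGroup r W := hyp.to_sup_of_normal_right hOp
  have hconj : ∀ g : G, g * y * g⁻¹ ∈ W := by
    intro g
    set f := g * y * g⁻¹ * y⁻¹ with hf
    have hfF : f ∈ Cfsg.fittingSubgroup G := by
      apply commutator_le_fitting h
      rw [_root_.commutator_def]
      exact Subgroup.commutator_mem_commutator (Subgroup.mem_top _) (Subgroup.mem_top _)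
    obtain ⟨a, b, hab, haz, hbz, ⟨l, hal⟩, hbc⟩ :=
      Cfsg.Agent.Lib.Nilpotent.Parts.exists_parts f r
    have hzF : zpowers f ≤ Cfsg.fittingSubgroup G := Subgroup.zpowers_le.2 hfF
    have haO : a ∈ Cfsg.pCore r G := by
      obtain ⟨j, hj⟩ := (Cfsg.Agent.Lib.Nilpotent.Elements.exists_pow_eq_one_iff a).1 ⟨l, hal⟩
      exact mem_pCore_of_mem_fitting (hzF haz) hj
    have hby : b * y = y * b := by
      by_contra hcon
      have hb' : b ∉ cent y := by
        rw [mem_cent_iff]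
        exact fun h1 => hcon h1.symm
      obtain ⟨m, hm, s, e, hs, hord⟩ := exists_primary_pow_notMem hb'
      apply hm
      rw [mem_cent_iff]
      by_cases he : e = 0
      · rw [he, pow_zero, orderOf_eq_one_iff] at hord
        rw [hord]
        group
      have hd : orderOf (b ^ m) ∣ orderOf b := orderOf_pow_dvd m
      have hsr : s ≠ r := by
        rintro rfl
        rw [hord] at hd
        have h1 : s ∣ orderOf b := (dvd_pow_self s he).trans hd
        exact hs.one_lt.ne' (Nat.Coprime.eq_one_of_dvd hbc.symm h1)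
      haveI : Fact s.Prime := ⟨hs⟩
      have hmem : b ^ m ∈ Cfsg.pCore s G :=
        mem_pCore_of_mem_fitting (Subgroup.pow_mem _ (hzF hbz) m) hord
      exact hc s hs hsr _ hmem
    have hab2 : a * b = b * a := by
      obtain ⟨i, rfl⟩ := haz
      obtain ⟨j, rfl⟩ := hbz
      exact ((Commute.refl f).zpow_zpow i j).eq
    set c := a * y with hc'
    have hcW : c ∈ W := W.mul_mem
      ((le_sup_right : Cfsg.pCore r G ≤ W) haO)
      ((le_sup_left : zpowers y ≤ W) (Subgroup.mem_zpowers y))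
    have hcb : Commute c b := by
      show a * y * b = b * (a * y)
      rw [mul_assoc, ← hby, ← mul_assoc, hab2, mul_assoc]
    have heq : g * y * g⁻¹ = c * b := by
      have h1 : g * y * g⁻¹ = f * y := by rw [hf]; group
      rw [h1, hab, hc', mul_assoc, hby, mul_assoc]
    obtain ⟨t, ht⟩ := hWp ⟨c, hcW⟩
    have ht' : c ^ r ^ t = 1 := by
      have := congrArg Subtype.val ht
      simpa using this
    have hpw : (c * b) ^ (r ^ t * r ^ k) = 1 := by
      have hyk : y ^ r ^ k = 1 := by rw [← hk, pow_orderOf_eq_one]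
      rw [← heq, conj_pow, mul_comm (r ^ t), pow_mul, hyk, one_pow]
      group
    rw [hcb.mul_pow, pow_mul c, ht', one_pow, one_mul] at hpw
    have hb1 : b = 1 := by
      have hd := orderOf_dvd_of_pow_eq_one hpw
      have hcop : Nat.Coprime (orderOf b) (r ^ t * r ^ k) := by
        rw [← pow_add]
        exact Nat.Coprime.pow_right _ hbc
      rw [← orderOf_eq_one_iff]
      exact Nat.Coprime.eq_one_of_dvd hcop hd
    rw [heq, hb1, mul_one]
    exact hcW
  have hWn : W.Normal := by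
    constructor
    intro x hx g
    have hle : W ≤ W.comap (MulAut.conj g).toMonoidHom := by
      apply sup_le
      · rw [Subgroup.zpowers_le, Subgroup.mem_comap]
        exact hconj g
      · intro o ho
        rw [Subgroup.mem_comap]
        exact (le_sup_right : Cfsg.pCore r G ≤ W) (hOn.conj_mem o ho g)
    exact hle hx
  haveI := hWn
  exact le_pCore hWp ((le_sup_left : zpowers y ≤ W) (Subgroup.mem_zpowers y))

/-- A commuting pair of coprime order: each factor is a power of the product. -/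
theorem mem_zpowers_mul_left {x z : G} (hc : Commute x z) (hco : (orderOf x).Coprime (orderOf z)) :
    x ∈ zpowers (x * z) := by
  obtain ⟨k, hk1, hk2⟩ := Nat.chineseRemainder hco 1 0
  have h1 : x ^ k = x := by
    have := (pow_eq_pow_iff_modEq (x := x) (n := k) (m := 1)).2 hk1
    simpa using this
  have h2 : z ^ k = 1 := by
    have := (pow_eq_pow_iff_modEq (x := z) (n := k) (m := 0)).2 hk2
    simpa using this
  have h3 : (x * z) ^ k = x := by
    rw [hc.mul_pow, h1, h2, mul_one]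
  have h4 := Subgroup.pow_mem _ (Subgroup.mem_zpowers (x * z)) k
  rwa [h3] at h4

/-- **Generic element.** -/
theorem exists_generic (h : Hsq G) : ∃ x : G, cent x ≤ Cfsg.fittingSubgroup G := by
  classical
  have hex : ∀ q : ℕ, q.Prime → ∃ a ∈ Cfsg.pCore q G, ∀ y : G, (orderOf y).Coprime q →
      y * a = a * y → ∀ o ∈ Cfsg.pCore q G, y * o = o * y := by
    intro q hq
    haveI : Fact q.Prime := ⟨hq⟩
    exact exists_gen_elt h
  choose! a ha hb using hex
  have hprod : ∀ s : Finset ℕ, (∀ q ∈ s, q.Prime) → ∃ x ∈ Cfsg.fittingSubgroup G,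
      (∀ q ∈ s, a q ∈ zpowers x) ∧ ∀ r : ℕ, r.Prime → r ∉ s → (orderOf x).Coprime r := by
    intro s
    induction s using Finset.induction_on with
    | empty =>
      intro _
      refine ⟨1, one_mem _, by simp, ?_⟩
      intro r _ _
      simp
    | insert q s hq ih =>
      intro hs
      obtain ⟨x, hxF, hx1, hx2⟩ := ih (fun r hr => hs r (Finset.mem_insert_of_mem hr))
      have hqp : q.Prime := hs q (Finset.mem_insert_self _ _)
      haveI : Fact q.Prime := ⟨hqp⟩
      obtain ⟨j, hj⟩ := orderOf_pCore (ha q hqp)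
      have haF : a q ∈ Cfsg.fittingSubgroup G := pCore_le_fittingSubgroup q (ha q hqp)
      have hco : (orderOf x).Coprime (orderOf (a q)) := by
        rw [hj]
        exact Nat.Coprime.pow_right j (hx2 q hqp hq)
      have hcomm : Commute x (a q) := fitting_commute hxF haF hco
      refine ⟨x * a q, Subgroup.mul_mem _ hxF haF, ?_, ?_⟩
      · intro r hr
        have hx' : x ∈ zpowers (x * a q) := mem_zpowers_mul_left hcomm hco
        have hz' : a q ∈ zpowers (x * a q) := by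
          rw [hcomm.eq]
          exact mem_zpowers_mul_left hcomm.symm hco.symm
        rcases Finset.mem_insert.1 hr with rfl | hr
        · exact hz'
        · exact (Subgroup.zpowers_le.2 hx') (hx1 r hr)
      · intro r hrp hr
        rw [hcomm.orderOf_mul_eq_mul_orderOf_of_coprime hco]
        have hrq : r ≠ q := fun h1 => hr (h1 ▸ Finset.mem_insert_self _ _)
        refine Nat.Coprime.mul_left (hx2 r hrp fun h1 => hr (Finset.mem_insert_of_mem h1)) ?_
        rw [hj]
        exact Nat.Coprime.pow_left j ((Nat.coprime_primes hqp hrp).2 (Ne.symm hrq))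
  obtain ⟨x, -, hx1, -⟩ := hprod (Nat.card G).primeFactors (fun q hq => Nat.prime_of_mem_primeFactors hq)
  refine ⟨x, ?_⟩
  intro g hg
  by_contra hgF
  obtain ⟨k, hk, r, e, hr, hord⟩ := exists_primary_pow_notMem hgF
  haveI : Fact r.Prime := ⟨hr⟩
  apply hk
  apply pCore_le_fittingSubgroup r
  have hyx : g ^ k ∈ cent x := Subgroup.pow_mem _ hg k
  refine mem_pCore_of_centralizes h ⟨e, hord⟩ ?_
  intro s hs hsr o ho
  haveI : Fact s.Prime := ⟨hs⟩
  by_cases hsG : s ∣ Nat.card G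
  · have hmem : a s ∈ zpowers x := hx1 s (Nat.mem_primeFactors.2 ⟨hs, hsG, Nat.card_pos.ne'⟩)
    have hcomm : g ^ k * a s = a s * g ^ k := by
      have h1 : zpowers x ≤ cent (g ^ k) := by
        rw [Subgroup.zpowers_le, mem_cent_iff]
        exact (mem_cent_iff.1 hyx).symm
      exact (mem_cent_iff.1 (h1 hmem))
    refine hb s hs (g ^ k) ?_ hcomm o ho
    rw [hord]
    exact Nat.Coprime.pow_left e ((Nat.coprime_primes hr hs).2 (Ne.symm hsr))
  · obtain ⟨n, hn⟩ := IsPGroup.iff_card.1 (isPGroup_pCore (G := G) s)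
    have hd : Nat.card (Cfsg.pCore s G) ∣ Nat.card G := Subgroup.card_subgroup_dvd_card _
    have hn0 : n = 0 := by
      by_contra hn0
      apply hsG
      rw [hn] at hd
      exact (dvd_pow_self s hn0).trans hd
    rw [hn0, pow_zero] at hn
    have hbot := Subgroup.eq_bot_of_card_eq _ hn
    rw [hbot, Subgroup.mem_bot] at ho
    rw [ho]
    group

/-- The index of the Fitting subgroup is squarefree. -/
theorem squarefree_index_fitting (h : Hsq G) : Squarefree (Cfsg.fittingSubgroup G).index := by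
  obtain ⟨x, hx⟩ := exists_generic h
  exact (h x).squarefree_of_dvd (Subgroup.index_dvd_of_le hx)

/-- The quotient by the Fitting subgroup is cyclic. -/
theorem isCyclic_quotient_fitting (h : Hsq G) : IsCyclic (G ⧸ Cfsg.fittingSubgroup G) := by
  have hcomm : ∀ a b : G ⧸ Cfsg.fittingSubgroup G, a * b = b * a := by
    intro a b
    obtain ⟨x, rfl⟩ := QuotientGroup.mk'_surjective _ a
    obtain ⟨y, rfl⟩ := QuotientGroup.mk'_surjective _ b
    have h1 : x * y * x⁻¹ * y⁻¹ ∈ Cfsg.fittingSubgroup G := by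
      apply commutator_le_fitting h
      rw [_root_.commutator_def]
      exact Subgroup.commutator_mem_commutator (Subgroup.mem_top _) (Subgroup.mem_top _)
    have h2 := (QuotientGroup.eq_one_iff (N := Cfsg.fittingSubgroup G) _).2 h1
    rw [QuotientGroup.mk_mul, QuotientGroup.mk_mul, QuotientGroup.mk_mul, QuotientGroup.mk_inv,
      QuotientGroup.mk_inv, mul_inv_eq_one, mul_inv_eq_iff_eq_mul] at h2
    exact h2
  letI : CommGroup (G ⧸ Cfsg.fittingSubgroup G) :=
    { (inferInstance : Group (G ⧸ Cfsg.fittingSubgroup G)) with mul_comm := hcomm }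
  haveI : IsZGroup (G ⧸ Cfsg.fittingSubgroup G) := by
    apply IsZGroup.of_squarefree
    rw [← Subgroup.index_eq_card]
    exact squarefree_index_fitting h
  infer_instance

/-- Commutators of commuting blocks. -/
theorem commutator_mul_mul {a b c d : G} (hba : Commute b a) (hbc : Commute b c) (hda : Commute d a)
    (hdc : Commute d c) : ⁅a * b, c * d⁆ = ⁅a, c⁆ * ⁅b, d⁆ := by
  simp only [commutatorElement_def]
  have h1 : b * c = c * b := hbc.eq
  have h2 : b⁻¹ * a⁻¹ = a⁻¹ * b⁻¹ := (hba.inv_inv).eq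
  have h3 : d * a⁻¹ = a⁻¹ * d := (hda.inv_right).eq
  have h4 : b * a⁻¹ = a⁻¹ * b := (hba.inv_right).eq
  have h5 : d⁻¹ * c⁻¹ = c⁻¹ * d⁻¹ := (hdc.inv_inv).eq
  have h6 : b⁻¹ * c⁻¹ = c⁻¹ * b⁻¹ := (hbc.inv_inv).eq
  have h7 : d * c⁻¹ = c⁻¹ * d := (hdc.inv_right).eq
  have h8 : b * c⁻¹ = c⁻¹ * b := (hbc.inv_right).eq
  calc a * b * (c * d) * (a * b)⁻¹ * (c * d)⁻¹
      = a * (b * c) * d * (b⁻¹ * a⁻¹) * (d⁻¹ * c⁻¹) := by group
    _ = a * c * b * (d * a⁻¹) * b⁻¹ * d⁻¹ * c⁻¹ := by rw [h1, h2]; group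
    _ = a * c * (b * a⁻¹) * d * b⁻¹ * d⁻¹ * c⁻¹ := by rw [h3]; group
    _ = a * c * a⁻¹ * b * d * b⁻¹ * (d⁻¹ * c⁻¹) := by rw [h4]; group
    _ = a * c * a⁻¹ * b * d * (b⁻¹ * c⁻¹) * d⁻¹ := by rw [h5]; group
    _ = a * c * a⁻¹ * b * (d * c⁻¹) * b⁻¹ * d⁻¹ := by rw [h6]; group
    _ = a * c * a⁻¹ * (b * c⁻¹) * d * b⁻¹ * d⁻¹ := by rw [h7]; group
    _ = a * c * a⁻¹ * c⁻¹ * (b * d * b⁻¹ * d⁻¹) := by rw [h8]; group

/-- **Class two.** -/
theorem commutator_comm_fitting (h : Hsq G) {x y z : G} (hx : x ∈ Cfsg.fittingSubgroup G)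
    (hy : y ∈ Cfsg.fittingSubgroup G) (hz : z ∈ Cfsg.fittingSubgroup G) :
    ⁅x, y⁆ * z = z * ⁅x, y⁆ := by
  by_contra hcon
  have hz' : z ∉ cent ⁅x, y⁆ := by
    rw [mem_cent_iff]
    exact fun h1 => hcon h1
  obtain ⟨k, hk, q, e, hq, hord⟩ := exists_primary_pow_notMem hz'
  apply hk
  rw [mem_cent_iff]
  haveI hqf : Fact q.Prime := ⟨hq⟩
  set w := z ^ k with hw
  have hwF : w ∈ Cfsg.fittingSubgroup G := Subgroup.pow_mem _ hz k
  have hwO : w ∈ Cfsg.pCore q G := mem_pCore_of_mem_fitting hwF hord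
  obtain ⟨a, b, hab, haz, hbz, ⟨l, hal⟩, hbc⟩ := Cfsg.Agent.Lib.Nilpotent.Parts.exists_parts x q
  obtain ⟨c, d, hcd, hcz, hdz, ⟨m, hcm⟩, hdc⟩ := Cfsg.Agent.Lib.Nilpotent.Parts.exists_parts y q
  have hxF : zpowers x ≤ Cfsg.fittingSubgroup G := Subgroup.zpowers_le.2 hx
  have hyF : zpowers y ≤ Cfsg.fittingSubgroup G := Subgroup.zpowers_le.2 hy
  have haO : a ∈ Cfsg.pCore q G := by
    obtain ⟨j, hj⟩ := (Cfsg.Agent.Lib.Nilpotent.Elements.exists_pow_eq_one_iff a).1 ⟨l, hal⟩
    exact mem_pCore_of_mem_fitting (hxF haz) hj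
  have hcO : c ∈ Cfsg.pCore q G := by
    obtain ⟨j, hj⟩ := (Cfsg.Agent.Lib.Nilpotent.Elements.exists_pow_eq_one_iff c).1 ⟨m, hcm⟩
    exact mem_pCore_of_mem_fitting (hyF hcz) hj
  have hcop : ∀ {u o : G}, u ∈ Cfsg.fittingSubgroup G → (orderOf u).Coprime q → o ∈ Cfsg.pCore q G →
      Commute u o := by
    intro u o hu huc ho
    obtain ⟨j, hj⟩ := orderOf_pCore ho
    apply fitting_commute hu (pCore_le_fittingSubgroup q ho)
    rw [hj]
    exact Nat.Coprime.pow_right j huc
  have hbF := hxF hbz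
  have hdF := hyF hdz
  have hba := hcop hbF hbc haO
  have hbc' := hcop hbF hbc hcO
  have hda := hcop hdF hdc haO
  have hdc' := hcop hdF hdc hcO
  have hbw := hcop hbF hbc hwO
  have hdw := hcop hdF hdc hwO
  rw [hab, hcd, commutator_mul_mul hba hbc' hda hdc']
  -- class two in `O_q`
  have hidxO : ∀ t : Cfsg.pCore q G, (cent t).index ∣ q := by
    intro t
    rw [cent_subgroupOf]
    haveI := pCore_normal (G := G) q
    exact h.relIndex_dvd hq (isPGroup_pCore q) t
  have h1 := commutator_central (isPGroup_pCore (G := G) q) hidxO ⟨a, haO⟩ ⟨c, hcO⟩ ⟨w, hwO⟩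
  have h1' : ⁅a, c⁆ * w = w * ⁅a, c⁆ := congrArg Subtype.val h1
  have h2 : Commute ⁅b, d⁆ w := by
    simp only [commutatorElement_def]
    exact ((hbw.mul_left hdw).mul_left hbw.inv_left).mul_left hdw.inv_left
  calc ⁅a, c⁆ * ⁅b, d⁆ * w = ⁅a, c⁆ * (⁅b, d⁆ * w) := by group
    _ = ⁅a, c⁆ * (w * ⁅b, d⁆) := by rw [h2.eq]
    _ = (⁅a, c⁆ * w) * ⁅b, d⁆ := by group
    _ = w * ⁅a, c⁆ * ⁅b, d⁆ := by rw [h1']
    _ = _ := by group

theorem upperCentralSeries_two_fitting (h : Hsq G) :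
    Subgroup.upperCentralSeries (Cfsg.fittingSubgroup G) 2 = ⊤ := by
  rw [eq_top_iff]
  intro x _
  rw [show (2 : ℕ) = 1 + 1 from rfl, Subgroup.mem_upperCentralSeries_succ_iff]
  intro y
  rw [Subgroup.upperCentralSeries_one, Subgroup.mem_center_iff]
  intro z
  apply Subtype.ext
  exact (commutator_comm_fitting h x.2 y.2 z.2).symm

end Cfsg.Agent.Lib.Nilpotent.Sqf
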